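import Mathlib

set_option autoImplicit false

namespace Cfsg.Agent.Lib.Helper8

theorem prime_graph_ext {G H : Type*} [Group G] [Group H] [Finite H] (π : H →* G) (σ : G →* H)
    (hσ : Function.Injective σ) (hel : ∀ n ∈ π.ker, n * n = 1)
    (hfpf : ∀ (y n : H) (s : ℕ), s.Prime → s ≠ 2 → orderOf (π y) = s → n ∈ π.ker →
      y * n = n * y → n = 1)
    (r s : ℕ) (hr : r.Prime) (hs : s.Prime) (hrs : r ≠ s) :
    (∃ x : G, orderOf x = r * s) ↔ ∃ y : H, orderOf y = r * s := by
  constructor
  · rintro ⟨x, hx⟩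
    exact ⟨σ x, by rw [orderOf_injective σ hσ, hx]⟩
  · rintro ⟨y, hy⟩
    obtain ⟨t, ht⟩ : ∃ t, t = orderOf (π y) := ⟨_, rfl⟩
    have htd : t ∣ r * s := by rw [ht, ← hy]; exact orderOf_map_dvd π y
    have hv : y ^ t ∈ π.ker := by
      rw [MonoidHom.mem_ker, map_pow, ht, pow_orderOf_eq_one]
    by_cases hv1 : y ^ t = 1
    · refine ⟨π y, ?_⟩
      have := orderOf_dvd_of_pow_eq_one hv1
      rw [hy] at this
      rw [← ht]
      exact Nat.dvd_antisymm htd this
    · exfalso
      have h2 : y ^ (t * 2) = 1 := by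
        rw [pow_mul, pow_two]; exact hel _ hv
      have h3 := orderOf_dvd_of_pow_eq_one h2
      rw [hy] at h3
      obtain ⟨c, hc⟩ := htd
      have htpos : 0 < t := by
        rcases Nat.eq_zero_or_pos t with h0 | h0
        · rw [h0, zero_mul] at hc
          exact absurd hc (Nat.mul_ne_zero hr.ne_zero hs.ne_zero)
        · exact h0
      rw [hc] at h3
      have hc2 : c ∣ 2 := Nat.dvd_of_mul_dvd_mul_left htpos h3
      have hcomm : y * y ^ t = y ^ t * y := by rw [← pow_succ, ← pow_succ']
      rcases (Nat.dvd_prime Nat.prime_two).1 hc2 with rfl | rfl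
      · apply hv1
        rw [mul_one] at hc
        rw [← hc, ← hy, pow_orderOf_eq_one]
      · have h2rs : 2 ∣ r * s := ⟨t, by rw [hc, mul_comm]⟩
        rcases (Nat.Prime.dvd_mul Nat.prime_two).1 h2rs with h | h
        · have hr2 : 2 = r := (Nat.prime_dvd_prime_iff_eq Nat.prime_two hr).1 h
          subst hr2
          have hts : t = s := by
            have : 2 * s = 2 * t := by rw [hc, mul_comm]
            omega
          exact hv1 (hfpf y (y ^ t) s hs (Ne.symm hrs) (by rw [← ht, hts]) hv hcomm)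
        · have hs2 : 2 = s := (Nat.prime_dvd_prime_iff_eq Nat.prime_two hs).1 h
          subst hs2
          have hts : t = r := by omega
          exact hv1 (hfpf y (y ^ t) r hr hrs (by rw [← ht, hts]) hv hcomm)

end Cfsg.Agent.Lib.Helper8
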