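import Cfsg.Agent.Lib.Helper8.ReeTwoGen
import Cfsg.Agent.Lib.Helper44.SuzDegree

/-!
# Lower bound for the degrees of characters of groups with small Ree normal form
-/

set_option autoImplicit false

namespace Cfsg.Agent.Lib.Helper8

open Cfsg Cfsg.Agent.Lib.Helper44
open scoped ComplexConjugate

namespace ReeData

variable {G : Type*} [Group G] {K : Type*} [Field K] (D : ReeData G K)

/-- parametrisation of the subgroup `U`. -/
def tQ (t u v : K) : D.Us := ⟨D.U t u v, D.U_mem t u v⟩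

theorem tQ_bij : Function.Bijective (fun p : K × K × K => D.tQ p.1 p.2.1 p.2.2) := by
  constructor
  · rintro ⟨t, u, v⟩ ⟨t', u', v'⟩ h
    obtain ⟨h1, h2, h3⟩ := D.U_inj _ _ _ _ _ _ (congrArg Subtype.val h)
    simp only at h1 h2 h3
    rw [h1, h2, h3]
  · rintro ⟨g, t, u, v, rfl⟩
    exact ⟨(t, u, v), rfl⟩

/-- the centre of `U` as an additive character. -/
def zQ : AddChar K D.Us where
  toFun b := D.tQ 0 0 b
  map_zero_eq_one' := Subtype.ext D.U_zero
  map_add_eq_mul' b b' := Subtype.ext (D.U00_mul b b').symm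

theorem zQ_apply (b : K) : D.zQ b = D.tQ 0 0 b := rfl

theorem zQ_mem_center (b : K) : D.zQ b ∈ Subgroup.center D.Us := by
  rw [Subgroup.mem_center_iff]
  rintro ⟨g, t, u, v, rfl⟩
  exact Subtype.ext (D.U00_central b t u v).symm

theorem conj_t_ne (t u v u' : K) :
    D.tQ 0 u' 0 * D.tQ t u v * (D.tQ 0 u' 0)⁻¹ = D.tQ t u v * D.zQ (-(u' * t)) := by
  rw [mul_inv_eq_iff_eq_mul]
  apply Subtype.ext
  show D.U 0 u' 0 * D.U t u v = D.U t u v * D.U 0 0 (-(u' * t)) * D.U 0 u' 0
  rw [D.U_mul, D.U_mul_U0, D.U_mul_U0]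
  congr 1
  · ring
  · ring
  · ring

theorem conj_u_ne (u v s : K) :
    D.tQ s 0 0 * D.tQ 0 u v * (D.tQ s 0 0)⁻¹ = D.tQ 0 u v * D.zQ (u * s) := by
  rw [mul_inv_eq_iff_eq_mul]
  apply Subtype.ext
  show D.U s 0 0 * D.U 0 u v = D.U 0 u v * D.U 0 0 (u * s) * D.U s 0 0
  rw [D.U_mul_U0, D.U_mul_U0, D.U_mul]
  congr 1
  · ring
  · ring
  · ring

theorem exists_ne_one_of_primitive {ψ : AddChar K ℂ} (hψ : ψ.IsPrimitive) {a : K} (ha : a ≠ 0) :
    ∃ c, ψ (a * c) ≠ 1 := by
  by_contra h
  push Not at h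
  apply hψ ha
  ext c
  rw [AddChar.mulShift_apply, AddChar.one_apply, h c]

variable [Fintype K]

/-- irreducible characters of `U` which are faithful on the centre have degree `q`. -/
theorem three_group_bound [Fintype D.Us] {ψ : AddChar K ℂ} (hψ : ψ.IsPrimitive) {θ : D.Us → ℂ}
    (hθ : IsIrrCharacter D.Us θ) (hcen : ∀ (x : D.Us) (b : K), θ (x * D.zQ b) = ψ b * θ x) {n : ℕ}
    (hn : θ 1 = n) : n = Fintype.card K := by
  classical
  have hch := Cfsg.Agent.Lib.Helper20.isCharacter_of_isIrrCharacter hθ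
  have hcl := Cfsg.Agent.Lib.Helper20.isClassFunction_of_isCharacter hch
  have hnorm := Cfsg.Agent.Lib.Helper20.classInner_irr_self hθ
  unfold classInner at hnorm
  have hcard : Nat.card D.Us = Fintype.card K * (Fintype.card K * Fintype.card K) := by
    rw [← Nat.card_congr (Equiv.ofBijective _ D.tQ_bij), Nat.card_prod, Nat.card_prod, Nat.card_eq_fintype_card]
  have hvan : ∀ (x : D.Us) (h : D.Us) (e : K), h * x * h⁻¹ = x * D.zQ e → ψ e ≠ 1 → θ x = 0 := by
    intro x h e he hne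
    have h1 := hcl x h
    rw [he, hcen] at h1
    have h2 : (ψ e - 1) * θ x = 0 := by linear_combination h1
    exact (mul_eq_zero.mp h2).resolve_left (sub_ne_zero.mpr hne)
  have ht : ∀ t : K, t ≠ 0 → ∀ u v, θ (D.tQ t u v) = 0 := by
    intro t ht u v
    obtain ⟨c, hc⟩ := exists_ne_one_of_primitive hψ ht
    refine hvan _ (D.tQ 0 (-c) 0) _ (D.conj_t_ne t u v (-c)) ?_
    have : -(-c * t) = t * c := by ring
    rwa [this]
  have hu : ∀ u : K, u ≠ 0 → ∀ v, θ (D.tQ 0 u v) = 0 := by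
    intro u hu v
    obtain ⟨c, hc⟩ := exists_ne_one_of_primitive hψ hu
    exact hvan _ (D.tQ c 0 0) _ (D.conj_u_ne u v c) hc
  have hv : ∀ v : K, θ (D.tQ 0 0 v) * conj (θ (D.tQ 0 0 v)) = (n : ℂ) ^ 2 := by
    intro v
    have h1 := hcen 1 v
    rw [one_mul, hn] at h1
    rw [← D.zQ_apply, h1, map_mul, Complex.conj_natCast]
    have := addChar_mul_conj ψ v
    linear_combination (n : ℂ) ^ 2 * this
  rw [hcard, ← Equiv.sum_comp (Equiv.ofBijective _ D.tQ_bij), Fintype.sum_prod_type] at hnorm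
  simp only [Fintype.sum_prod_type, Equiv.ofBijective_apply] at hnorm
  rw [Finset.sum_eq_single (0 : K) (by
      intro t _ ht0
      apply Finset.sum_eq_zero; intro u _
      apply Finset.sum_eq_zero; intro v _
      rw [ht t ht0 u v, zero_mul]) (by intro h; exact absurd (Finset.mem_univ _) h),
    Finset.sum_eq_single (0 : K) (by
      intro u _ hu0
      apply Finset.sum_eq_zero; intro v _
      rw [hu u hu0 v, zero_mul]) (by intro h; exact absurd (Finset.mem_univ _) h),
    Finset.sum_congr rfl (fun v _ => hv v)] at hnorm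
  simp only [Finset.sum_const, Finset.card_univ, nsmul_eq_mul] at hnorm
  have hq : (Fintype.card K : ℂ) ≠ 0 := card_ne_zero'
  have h3 : (n : ℂ) ^ 2 = (Fintype.card K : ℂ) ^ 2 := by
    push_cast at hnorm
    field_simp at hnorm
    linear_combination hnorm
  have h4 : n ^ 2 = Fintype.card K ^ 2 := by exact_mod_cast h3
  exact Nat.pow_left_injective (n := 2) (by norm_num) h4

/-- the centre of `U` as an additive character with values in `G`. -/
def zG : AddChar K G := D.Us.subtype.compAddChar D.zQ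

omit [Fintype K] in
theorem zG_apply (b : K) : D.zG b = D.U 0 0 b := rfl

omit [Fintype K] in
theorem zG_isConj {s : K} (hs : s ≠ 0) (x : K) : IsConj (D.zG x) (D.zG (s * x)) := by
  rw [isConj_iff]
  refine ⟨D.H (D.ζ (Units.mk0 s hs)), ?_⟩
  rw [D.zG_apply, D.zG_apply, D.H_conj, D.w_ζ, mul_zero, mul_zero, Units.val_mk0]

/-- decomposition of the degree of a character which is non-trivial on `Z(U)`. -/
theorem degree_decomp [Finite G] {χ : G → ℂ} (hχ : IsCharacter G χ) (hnt : ∃ b, χ (D.U 0 0 b) ≠ χ 1)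
    {k : ℕ} (hk : χ 1 = k) :
    ∃ m₀ m₁ : ℕ, k = m₀ + m₁ * (Fintype.card K - 1) ∧ Fintype.card K ≤ m₁ ∧
      ∑ x : K, χ (D.U 0 0 x) = (Fintype.card K : ℂ) * m₀ := by
  classical
  have := Fintype.ofFinite D.Us
  obtain ⟨ψ, hψ⟩ := exists_primitive_addChar K
  have hcl := Cfsg.Agent.Lib.Helper20.isClassFunction_of_isCharacter hχ
  have hinv : ∀ s : K, s ≠ 0 → mS ψ D.zG χ s = mS ψ D.zG χ 1 := by
    intro s hs
    have := mS_mul_of_isConj ψ D.zG hcl hs (D.zG_isConj hs) 1
    rwa [one_mul] at this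
  obtain ⟨m₀, h0⟩ := mS_nat ψ D.zG hχ 0
  obtain ⟨m₁, h1⟩ := mS_nat ψ D.zG hχ 1
  have hval := apply_of_mS_uniform hψ D.zG χ m₁ (fun s hs => by rw [hinv s hs, h1])
  have hdeg : (k : ℂ) = m₀ + m₁ * ((Fintype.card K : ℂ) - 1) := by
    have := hval 0
    rw [AddChar.map_zero_eq_one, if_pos rfl, h0, hk] at this
    exact this
  have hm1 : m₁ ≠ 0 := by
    rintro rfl
    obtain ⟨b, hb⟩ := hnt
    apply hb
    have e1 := hval b
    have e2 := hval 0
    rw [AddChar.map_zero_eq_one] at e2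
    rw [D.zG_apply] at e1
    rw [e1, e2]
    simp
  have hφ : IsCharacter D.Us (χ ∘ D.Us.subtype) := Cfsg.Agent.Lib.Helper20.isCharacter_comp_hom hχ D.Us.subtype
  have hmQ : mS ψ D.zQ (χ ∘ D.Us.subtype) 1 = m₁ := by rw [← h1]; rfl
  obtain ⟨θ, φ', hθ, hφ', hsum, hne⟩ := exists_irr_constituent_mS ψ D.zQ hφ 1 (by rw [hmQ]; exact_mod_cast hm1)
  have hcen := central_eq_of_mS_ne_zero ψ D.zQ D.zQ_mem_center hθ hne
  have hθ1 := mS_eq_degree_of_central ψ D.zQ hcen
  obtain ⟨n, hn⟩ := Cfsg.Agent.Lib.Helper20.isCharacter_apply_one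
    (Cfsg.Agent.Lib.Helper20.isCharacter_of_isIrrCharacter hθ)
  have hbound := D.three_group_bound hψ hθ hcen hn
  obtain ⟨l, hl⟩ := mS_nat ψ D.zQ hφ' 1
  have hle : n ≤ m₁ := by
    rw [hsum, mS_add, hθ1, hn, hl] at hmQ
    have : n + l = m₁ := by exact_mod_cast hmQ
    omega
  have hq : 1 ≤ Fintype.card K := Fintype.card_pos
  refine ⟨m₀, m₁, ?_, hbound ▸ hle, ?_⟩
  · have : (k : ℂ) = ((m₀ + m₁ * (Fintype.card K - 1) : ℕ) : ℂ) := by
      rw [hdeg]; push_cast [Nat.cast_sub hq]; ring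
    exact_mod_cast this
  · have h2 : mS ψ D.zG χ 0 = (Fintype.card K : ℂ)⁻¹ * ∑ x : K, χ (D.U 0 0 x) := by
      unfold mS
      congr 1
      apply Finset.sum_congr rfl
      intro x _
      rw [zero_mul, AddChar.map_zero_eq_one, map_one, mul_one, D.zG_apply]
    rw [← h0, h2, ← mul_assoc, mul_inv_cancel₀ card_ne_zero', one_mul]

omit [Fintype K] in
theorem z_mul_j_isConj (v : K) : IsConj (D.H (-1)) (D.U 0 0 v * D.H (-1)) := by
  have h3 := D.three
  rw [isConj_iff]
  refine ⟨D.U 0 0 (-v), ?_⟩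
  have e : D.U 0 0 (-v) * D.H (-1) * (D.U 0 0 (-v))⁻¹ =
      D.U 0 0 (-v) * (D.H (-1) * (D.U 0 0 (-v))⁻¹ * (D.H (-1))⁻¹) * D.H (-1) := by group
  rw [e, D.U_inv, D.H_conj, D.U_mul]
  congr 2
  · simp
  · simp
  · simp only [Units.val_neg, Units.val_one, map_neg, map_one]
    linear_combination (-v) * h3

/-- if `Z(U)` has no fixed vectors, the character vanishes at the involution of the torus. -/
theorem char_j_eq_zero {k : ℕ} (ρ : Representation ℂ G (Fin k → ℂ))
    (h0 : ∑ x : K, ρ.character (D.U 0 0 x) = 0) : ρ.character (D.H (-1)) = 0 := by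
  classical
  have hq : (Fintype.card K : ℂ) ≠ 0 := card_ne_zero'
  set P : Module.End ℂ (Fin k → ℂ) := ∑ x : K, ρ (D.U 0 0 x) with hP
  have hPP : P * P = (Fintype.card K : ℂ) • P := by
    rw [hP, Finset.sum_mul]
    have : ∀ x : K, ρ (D.U 0 0 x) * ∑ y : K, ρ (D.U 0 0 y) = ∑ y : K, ρ (D.U 0 0 y) := by
      intro x
      rw [Finset.mul_sum, ← Equiv.sum_comp (Equiv.addLeft x) (fun y => ρ (D.U 0 0 y))]
      apply Finset.sum_congr rfl
      intro y _
      rw [← map_mul, D.U00_mul]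
      rfl
    rw [Finset.sum_congr rfl (fun x _ => this x)]
    simp only [Finset.sum_const, Finset.card_univ]
    rw [Nat.cast_smul_eq_nsmul]
  have htr : LinearMap.trace ℂ _ P = 0 := by
    rw [hP, map_sum]
    exact h0
  have hE : IsIdempotentElem ((Fintype.card K : ℂ)⁻¹ • P) := by
    unfold IsIdempotentElem
    rw [smul_mul_smul_comm, hPP, smul_smul, mul_assoc, inv_mul_cancel₀ hq, mul_one]
  have hE0 : (Fintype.card K : ℂ)⁻¹ • P = 0 := by
    apply LinearMap.IsIdempotentElem.eq_zero_of_trace_eq_zero hE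
    rw [map_smul, htr, smul_zero]
  have hP0 : P = 0 := by
    rcases smul_eq_zero.1 hE0 with h | h
    · exact absurd h (inv_ne_zero hq)
    · exact h
  have h1 : LinearMap.trace ℂ _ (P * ρ (D.H (-1))) = (Fintype.card K : ℂ) * ρ.character (D.H (-1)) := by
    rw [hP, Finset.sum_mul, map_sum]
    have : ∀ x : K, LinearMap.trace ℂ _ (ρ (D.U 0 0 x) * ρ (D.H (-1))) = ρ.character (D.H (-1)) := by
      intro x
      rw [← map_mul]
      obtain ⟨c, hc⟩ := isConj_iff.1 (D.z_mul_j_isConj x)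
      rw [← hc]
      exact ρ.char_conj _ _
    rw [Finset.sum_congr rfl (fun x _ => this x)]
    simp
  rw [hP0, zero_mul, map_zero] at h1
  exact (mul_eq_zero.1 h1.symm).resolve_left hq

end ReeData

section det

variable {G : Type*} [Group G] [Finite G]

/-- the determinant of an involution with vanishing trace. -/
theorem det_of_sq_one_of_char_zero {k : ℕ} (ρ : Representation ℂ G (Fin k → ℂ)) {j : G} (hj : j * j = 1)
    (h0 : ρ.character j = 0) : ∃ b : ℕ, k = 2 * b ∧ LinearMap.det (ρ j) = (-1) ^ b := by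
  classical
  obtain ⟨B, μ, h1, h2⟩ := Cfsg.Agent.Lib.Helper4.exists_eigenbasis ρ j
  have hμ : ∀ i, μ i = 1 ∨ μ i = -1 := by
    intro i
    have h3 : ρ j (ρ j (B i)) = B i := by
      rw [← Module.End.mul_apply, ← map_mul, hj, map_one, Module.End.one_apply]
    rw [h1, map_smul, h1, smul_smul] at h3
    have h4 : (μ i * μ i - 1) • B i = 0 := by rw [sub_smul, h3, one_smul, sub_self]
    rcases smul_eq_zero.mp h4 with h5 | h5
    · have : (μ i - 1) * (μ i + 1) = 0 := by linear_combination h5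
      rcases mul_eq_zero.1 this with h6 | h6
      · exact Or.inl (sub_eq_zero.1 h6)
      · exact Or.inr (eq_neg_of_add_eq_zero_left h6)
    · exact absurd h5 (B.ne_zero i)
  have hμ' : ∀ i, μ i = if μ i = -1 then -1 else 1 := by
    intro i
    rcases hμ i with h | h
    · rw [h, if_neg (by norm_num)]
    · rw [if_pos h, h]
  have htr : ρ.character j = ∑ i, μ i := Cfsg.Agent.Lib.Helper4.trace_eq_sum_of_eigenbasis _ B μ h1
  have hdet : LinearMap.det (ρ j) = ∏ i, μ i := by
    rw [← LinearMap.det_toMatrix B]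
    have : LinearMap.toMatrix B B (ρ j) = Matrix.diagonal μ := by
      ext a c
      rw [LinearMap.toMatrix_apply, h1, map_smul, Matrix.diagonal_apply]
      by_cases hac : a = c
      · subst hac; simp
      · rw [if_neg hac]
        simp [Ne.symm hac]
    rw [this, Matrix.det_diagonal]
  set S := Finset.univ.filter (fun i => μ i = -1) with hS
  have hfin : Module.finrank ℂ (Fin k → ℂ) = k := by simp
  have hsum : ∑ i, μ i = (k : ℂ) - 2 * S.card := by
    rw [Finset.sum_congr rfl (fun i _ => hμ' i), Finset.sum_ite]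
    simp only [Finset.sum_const, nsmul_eq_mul, mul_one, mul_neg]
    have hc : (Finset.univ.filter (fun i => ¬ μ i = -1)).card = k - S.card := by
      have := Finset.card_filter_add_card_filter_not (s := (Finset.univ : Finset (Fin (Module.finrank ℂ (Fin k → ℂ)))))
        (fun i => μ i = -1)
      rw [Finset.card_univ, Fintype.card_fin] at this
      have h5 : S.card + (Finset.univ.filter (fun i => ¬ μ i = -1)).card = k := this.trans hfin
      omega
    have hle : S.card ≤ k := by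
      have := Finset.card_le_univ S
      rw [Fintype.card_fin] at this
      omega
    rw [hc, Nat.cast_sub hle]
    ring
  have hprod : ∏ i, μ i = (-1) ^ S.card := by
    rw [Finset.prod_congr rfl (fun i _ => hμ' i), Finset.prod_ite]
    simp [hS]
  refine ⟨S.card, ?_, by rw [hdet, hprod]⟩
  rw [htr, hsum] at h0
  have : (k : ℂ) = ((2 * S.card : ℕ) : ℂ) := by push_cast; linear_combination h0
  exact_mod_cast this

omit [Finite G] in
/-- the determinant of a representation of a perfect group is trivial. -/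
theorem det_eq_one_of_perfect (hperf : commutator G = ⊤) {k : ℕ} (ρ : Representation ℂ G (Fin k → ℂ)) (g : G) :
    LinearMap.det (ρ g) = 1 := by
  let δ : G →* ℂ := (LinearMap.det : _ →* ℂ).comp ρ
  have h1 : g ∈ (δ.toHomUnits).ker := Abelianization.commutator_subset_ker _ (by rw [hperf]; trivial)
  have h2 := congrArg Units.val (MonoidHom.mem_ker.1 h1)
  exact h2

end det

end Cfsg.Agent.Lib.Helper8
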