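import Cfsg.Agent.Lib.Helper8.ReeDeg
import Cfsg.Agent.Lib.Helper82.CharKer
import Cfsg.Agent.Lib.Helper82.Linear

/-!
# The minimal degree of a non-trivial irreducible character of a small Ree group is at least `q² - q + 1`
-/

set_option autoImplicit false

namespace Cfsg.Agent.Lib.Helper8

open Cfsg Cfsg.Agent.Lib.Helper44

namespace ReeData

variable {G : Type*} [Group G] {K : Type*} [Field K] (D : ReeData G K) [Fintype K]

include D in
theorem min_degree [Finite G] (hsimple : IsSimpleGroup G) (hperf : commutator G = ⊤)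
    (hq4 : Fintype.card K % 4 = 3) {k : ℕ} (ρ : Representation ℂ G (Fin k → ℂ)) (hρ : ρ.IsIrreducible)
    (hk : 2 ≤ k) : Fintype.card K ^ 2 - Fintype.card K + 1 ≤ k := by
  have hirr : IsIrrCharacter G ρ.character := ⟨k, ρ, hρ, rfl⟩
  have hch := Cfsg.Agent.Lib.Helper82.isIrr_isChar hirr
  have hdeg : ρ.character 1 = k := by
    simp only [Representation.char_one]
    simp
  have hnt : ∃ b, ρ.character (D.U 0 0 b) ≠ ρ.character 1 := by
    refine ⟨1, ?_⟩
    intro h
    have hmem : D.U 0 0 1 ∈ Cfsg.Agent.Lib.Helper82.charKer ρ.character hch := h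
    rcases hsimple.eq_bot_or_eq_top_of_normal (Cfsg.Agent.Lib.Helper82.charKer ρ.character hch) inferInstance
      with hb | ht
    · rw [hb, Subgroup.mem_bot] at hmem
      exact D.U_ne_one (by simp) hmem
    · have h1 : ρ.character 1 = 1 := by
        rw [Cfsg.Agent.Lib.Helper82.isIrr_linear_iff hirr]
        intro x _
        have : x ∈ Cfsg.Agent.Lib.Helper82.charKer ρ.character hch := by rw [ht]; trivial
        exact this
      rw [hdeg] at h1
      have : k = 1 := by exact_mod_cast h1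
      omega
  obtain ⟨m₀, m₁, hk', hq, hsum⟩ := D.degree_decomp hch hnt hdeg
  set q := Fintype.card K with hqdef
  have hq1 : 1 ≤ q := by omega
  obtain ⟨r, hr⟩ : ∃ r, q = r + 1 := ⟨q - 1, by omega⟩
  have e1 : q ^ 2 - q = q * (q - 1) := by
    rw [hr]
    have : (r + 1) ^ 2 = (r + 1) * r + (r + 1) := by ring
    rw [this]
    simp
  rw [e1]
  by_contra hlt
  push Not at hlt
  have h1 : q * (q - 1) ≤ m₁ * (q - 1) := Nat.mul_le_mul_right _ hq
  have hm0 : m₀ = 0 := by omega
  have hkq : k = q * (q - 1) := by omega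
  rw [hm0, Nat.cast_zero, mul_zero] at hsum
  have hj0 := D.char_j_eq_zero ρ hsum
  have hjj : D.H (-1) * D.H (-1) = 1 := by
    rw [← map_mul, neg_mul_neg, one_mul, map_one]
  obtain ⟨b, hb, hdet⟩ := det_of_sq_one_of_char_zero ρ hjj hj0
  rw [det_eq_one_of_perfect hperf] at hdet
  have hbe : Even b := by
    by_contra hodd
    rw [Nat.not_even_iff_odd] at hodd
    rw [hodd.neg_one_pow] at hdet
    norm_num at hdet
  obtain ⟨c, hc⟩ := hbe
  obtain ⟨s, hs⟩ : ∃ s, q = 4 * s + 3 := ⟨q / 4, by omega⟩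
  have h2 : q * (q - 1) = 4 * (4 * s * s + 5 * s + 1) + 2 := by
    rw [hs]
    have : 4 * s + 3 - 1 = 4 * s + 2 := by omega
    rw [this]; ring
  omega

end ReeData

end Cfsg.Agent.Lib.Helper8
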