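import Cfsg.Agent.Lib.Helper8.SzLocal

set_option autoImplicit false
open scoped Pointwise MatrixGroups

namespace Cfsg.Agent.Lib.Helper8

lemma three_le_card {X : Type*} [Finite X] {a b c : X} (hab : a ≠ b) (hbc : b ≠ c) (hac : a ≠ c) :
    3 ≤ Nat.card X := by
  classical
  have := Fintype.ofFinite X
  rw [Nat.card_eq_fintype_card]
  have h3 : ({a, b, c} : Finset X).card = 3 := Finset.card_eq_three.2 ⟨a, b, c, hab, hac, hbc, rfl⟩
  rw [← h3]
  exact Finset.card_le_univ _

/-- in an action where `z` has at most two fixed points, an element permuting them has its square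
fixing them -/
lemma sq_mem_stab {G Ω : Type*} [Group G] [MulAction G Ω] [Finite Ω] {z g : G} {α : Ω}
    (hfix : Nat.card (MulAction.fixedBy Ω z) ≤ 2) (h0 : z • α = α) (h1 : (g⁻¹ * z * g) • α = α)
    (h2 : ((g * g)⁻¹ * z * (g * g)) • α = α) : (g * g) • α = α := by
  have f1 : z • (g • α) = g • α := by
    rw [mul_smul, mul_smul, inv_smul_eq_iff] at h1
    exact h1
  have f2 : z • ((g * g) • α) = (g * g) • α := by
    rw [mul_smul, mul_smul, inv_smul_eq_iff] at h2
    exact h2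
  by_contra hne
  have n1 : g • α ≠ α := by
    intro e
    apply hne
    rw [mul_smul, e, e]
  have n2 : g • α ≠ (g * g) • α := by
    intro e
    rw [mul_smul] at e
    exact n1 (smul_left_cancel g e).symm
  have := three_le_card (X := MulAction.fixedBy Ω z) (a := ⟨α, h0⟩) (b := ⟨g • α, f1⟩)
    (c := ⟨(g * g) • α, f2⟩) (fun e => n1 (congrArg Subtype.val e).symm)
    (fun e => n2 (congrArg Subtype.val e)) (fun e => hne (congrArg Subtype.val e).symm)
  omega

section

variable {F : Type*} [Field F] [CharP F 2] [Fintype F] {m : ℕ}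
  (hF : Fintype.card F = 2 ^ (2 * m + 1)) (hm : 1 ≤ m)
variable {Ω : Type*} [Fintype Ω] [MulAction (Cfsg.Sz F m) Ω]

include hm in
lemma case_even (hfix : ∀ g : Cfsg.Sz F m, g ≠ 1 → Nat.card (MulAction.fixedBy Ω g) ≤ 2)
    {α : Ω} {b : F} (hb : b ≠ 0) (hα : tG hF 0 b • α = α) (hnt : ∃ g : Cfsg.Sz F m, g • α ≠ α) :
    MulAction.stabilizer (Cfsg.Sz F m) α =
      MulAction.stabilizer (Cfsg.Sz F m) (Cfsg.suzukiPointInfinity F) := by
  have hz := hfix _ (tG_zero_ne_one hF hb)
  -- central translations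
  have ha : ∀ β, tG hF 0 β • α = α := by
    intro β
    obtain ⟨a, rfl⟩ := psi_surj hF β
    rw [← tG_sq hF a 0]
    have hc : ∀ g : Cfsg.Sz F m, g * tG hF 0 b = tG hF 0 b * g → (g⁻¹ * tG hF 0 b * g) • α = α := by
      intro g hg
      rw [mul_assoc, ← hg, inv_mul_cancel_left, hα]
    apply sq_mem_stab hz hα
    · apply hc
      rw [tG_mul, tG_mul]; simp [add_comm]
    · apply hc
      rw [tG_sq, tG_mul, tG_mul]; simp [add_comm]
  have hconj : ∀ g : Cfsg.Sz F m, g • Cfsg.suzukiPointInfinity F = Cfsg.suzukiPointInfinity F →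
      (g⁻¹ * tG hF 0 b * g) • α = α := by
    intro g hg
    obtain ⟨a', c', l', e⟩ := nf_inf hF hm (g := g⁻¹) (by rw [inv_smul_eq_iff, hg])
    have := borel_conj_central hF a' c' l' b
    rw [← e, inv_inv] at this
    rw [this]; exact ha _
  have hsq : ∀ g : Cfsg.Sz F m, g • Cfsg.suzukiPointInfinity F = Cfsg.suzukiPointInfinity F →
      (g * g) • α = α := by
    intro g hg
    apply sq_mem_stab hz hα (hconj g hg)
    apply hconj
    rw [mul_smul, hg, hg]
  have hd : ∀ l, dG hF l • α = α := by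
    intro l
    obtain ⟨j, rfl⟩ := unit_sqrt hF l
    rw [dG_mul]
    exact hsq _ (dG_inf hF j)
  have htd : ∀ a c (k : Fˣ), k ≠ 1 → (tG hF a c * dG hF k) • α = α := by
    intro a c k hk
    obtain ⟨x, y, k', e⟩ := exists_conj_torus hF hm a c hk
    obtain ⟨j, rfl⟩ := unit_sqrt hF k'
    have e2 : tG hF a c * dG hF k =
        (tG hF x y * dG hF j * (tG hF x y)⁻¹) * (tG hF x y * dG hF j * (tG hF x y)⁻¹) := by
      calc tG hF a c * dG hF k
          = tG hF x y * ((tG hF x y)⁻¹ * (tG hF a c * dG hF k) * tG hF x y) * (tG hF x y)⁻¹ := by group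
        _ = _ := by rw [e, dG_mul]; group
    rw [e2]
    apply hsq
    rw [mul_smul, mul_smul, inv_smul_eq_iff.2 (tG_inf hF x y).symm, dG_inf, tG_inf]
  have ht : ∀ a c, tG hF a c • α = α := by
    intro a c
    obtain ⟨k, hk⟩ := exists_unit_ne_one (F := F) hF hm
    have h1 := htd a c k hk
    rw [mul_smul, hd] at h1
    exact h1
  have hQ : QG hF ≤ MulAction.stabilizer (Cfsg.Sz F m) α := by
    rintro _ ⟨a, c, rfl⟩
    exact ht a c
  apply le_antisymm
  · rcases overgroup_QG hF hm hQ with h | h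
    · exact h
    · exfalso
      obtain ⟨g, hg⟩ := hnt
      apply hg
      have : g ∈ MulAction.stabilizer (Cfsg.Sz F m) α := by rw [h]; trivial
      exact this
  · intro g hg
    obtain ⟨a, c, l, rfl⟩ := nf_inf hF hm hg
    show (tG hF a c * dG hF l) • α = α
    rw [mul_smul, hd, ht]

include hF hm in
lemma two_trans_of_stab (htr : MulAction.IsPretransitive (Cfsg.Sz F m) Ω) {α : Ω}
    (hst : MulAction.stabilizer (Cfsg.Sz F m) α =
      MulAction.stabilizer (Cfsg.Sz F m) (Cfsg.suzukiPointInfinity F)) :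
    Fintype.card Ω = (2 ^ (2 * m + 1)) ^ 2 + 1 ∧
      MulAction.IsMultiplyPretransitive (Cfsg.Sz F m) Ω 2 := by
  have hmem : ∀ g : Cfsg.Sz F m, g • α = α ↔
      g • Cfsg.suzukiPointInfinity F = Cfsg.suzukiPointInfinity F := by
    intro g
    rw [← MulAction.mem_stabilizer_iff, hst, MulAction.mem_stabilizer_iff]
  constructor
  · have h1 := Subgroup.card_mul_index (MulAction.stabilizer (Cfsg.Sz F m) α)
    rw [MulAction.index_stabilizer, MulAction.orbit_eq_univ, Set.ncard_univ, hst,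
      card_stab_inf hF hm, card_Sz hF hm, Nat.card_eq_fintype_card] at h1
    have hpos : 0 < (2 ^ (2 * m + 1)) ^ 2 * (2 ^ (2 * m + 1) - 1) := by
      have := eight_le_q hm
      apply Nat.mul_pos (by positivity)
      omega
    apply Nat.eq_of_mul_eq_mul_left hpos
    rw [h1]; ring
  · rw [MulAction.is_two_pretransitive_iff]
    intro a b c d hab hcd
    obtain ⟨g₁, hg₁⟩ := MulAction.exists_smul_eq (Cfsg.Sz F m) a α
    obtain ⟨g₂, hg₂⟩ := MulAction.exists_smul_eq (Cfsg.Sz F m) c α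
    obtain ⟨x, hx⟩ := MulAction.exists_smul_eq (Cfsg.Sz F m) α (g₁ • b)
    obtain ⟨y, hy⟩ := MulAction.exists_smul_eq (Cfsg.Sz F m) α (g₂ • d)
    have hx' : x • Cfsg.suzukiPointInfinity F ≠ Cfsg.suzukiPointInfinity F := by
      intro e
      rw [← hmem, hx, ← hg₁] at e
      exact hab (smul_left_cancel g₁ e).symm
    have hy' : y • Cfsg.suzukiPointInfinity F ≠ Cfsg.suzukiPointInfinity F := by
      intro e
      rw [← hmem, hy, ← hg₂] at e
      exact hcd (smul_left_cancel g₂ e).symm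
    rcases mem_ovoid.1 (smul_mem_ovoid x (ptInf_mem m)) with h | ⟨a₁, b₁, h₁⟩
    · exact absurd h hx'
    rcases mem_ovoid.1 (smul_mem_ovoid y (ptInf_mem m)) with h | ⟨a₂, b₂, h₂⟩
    · exact absurd h hy'
    set h := tG hF a₂ b₂ * (tG hF a₁ b₁)⁻¹ with hh
    have hinf : h • Cfsg.suzukiPointInfinity F = Cfsg.suzukiPointInfinity F := by
      rw [hh, mul_smul, inv_smul_eq_iff.2 (tG_inf hF a₁ b₁).symm, tG_inf]
    have hxy : h • (x • Cfsg.suzukiPointInfinity F) = y • Cfsg.suzukiPointInfinity F := by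
      rw [h₁, h₂, hh, mul_smul, inv_smul_eq_iff.2 (tG_pt_zero hF a₁ b₁).symm, tG_pt_zero]
    have h3 : (y⁻¹ * h * x) • α = α := by
      rw [hmem, mul_smul, mul_smul, hxy, inv_smul_smul]
    refine ⟨g₂⁻¹ * h * g₁, ?_, ?_⟩
    · rw [mul_smul, mul_smul, hg₁, (hmem h).2 hinf, inv_smul_eq_iff, hg₂]
    · rw [mul_smul, mul_smul, ← hx, inv_smul_eq_iff, ← hy]
      rw [mul_smul, mul_smul, inv_smul_eq_iff] at h3
      exact h3

/-- no involution fixes a point, so elements fixing a point have odd order -/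
lemma odd_of_no_inv {G Ω : Type*} [Group G] [Finite G] [MulAction G Ω]
    (hno : ∀ (z : G) (α : Ω), z ≠ 1 → z * z = 1 → z • α ≠ α) {g : G} {α : Ω} (hg : g • α = α) :
    ¬ 2 ∣ orderOf g := by
  rintro ⟨i, hi⟩
  have hpos : 0 < orderOf g := orderOf_pos g
  apply hno (g ^ i) α (pow_ne_one_of_lt_orderOf (by omega) (by omega))
  · rw [← pow_add, ← two_mul, ← hi]; exact pow_orderOf_eq_one g
  · exact MulAction.mem_stabilizer_iff.1 (pow_mem (MulAction.mem_stabilizer_iff.2 hg) i)

include hF hm in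
lemma case_fpf (hfix : ∀ g : Cfsg.Sz F m, g ≠ 1 → Nat.card (MulAction.fixedBy Ω g) ≤ 2)
    (hno : ∀ (z : Cfsg.Sz F m) (α : Ω), z ≠ 1 → z * z = 1 → z • α ≠ α)
    {h : Cfsg.Sz F m} (hf : Fpf h) {α : Ω} (hα : h • α = α) : False := by
  have hh1 := fpf_ne_one hf
  have hz := hfix h hh1
  set T := Subgroup.centralizer ({h} : Set (Cfsg.Sz F m)) with hT
  have hTodd : ¬ 2 ∣ Nat.card T := fun e => odd_q2 m (e.trans (card_tor_dvd hF hm hf))
  have hTH : ∀ g ∈ T, g • α = α := by
    intro g hg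
    have hgh : g * h = h * g := Subgroup.mem_centralizer_singleton_iff.1 hg
    have hc : ∀ g : Cfsg.Sz F m, g * h = h * g → (g⁻¹ * h * g) • α = α := by
      intro g hg
      rw [mul_assoc, ← hg, inv_mul_cancel_left, hα]
    have h2 : (g * g) • α = α := by
      apply sq_mem_stab hz hα (hc g hgh)
      apply hc
      rw [mul_assoc, hgh, ← mul_assoc, hgh, mul_assoc]
    have hodd : ¬ 2 ∣ orderOf g := by
      intro e
      apply hTodd
      have := orderOf_dvd_natCard (⟨g, hg⟩ : T)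
      rw [Subgroup.orderOf_mk] at this
      exact e.trans this
    exact MulAction.mem_stabilizer_iff.1
      (mem_of_sq_mem (H := MulAction.stabilizer (Cfsg.Sz F m) α) hodd h2)
  obtain ⟨-, hN⟩ := card_cent_fpf hF hm hf
  rw [← hT] at hN
  set N := Subgroup.normalizer (T : Set (Cfsg.Sz F m)) with hNdef
  have h1 := Subgroup.card_mul_index (MulAction.stabilizer N α)
  rw [MulAction.index_stabilizer, hN] at h1
  have horb : (MulAction.orbit N α).ncard ≤ 2 := by
    have hsub : MulAction.orbit N α ⊆ MulAction.fixedBy Ω h := by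
      rintro _ ⟨⟨g, hg⟩, rfl⟩
      show h • (g • α) = g • α
      have hmem : g⁻¹ * h * g ∈ T := by
        have := (Subgroup.mem_normalizer_iff.1 (inv_mem hg) h).1 (self_mem_centralizer h)
        rwa [inv_inv] at this
      have := hTH _ hmem
      rw [mul_smul, mul_smul, inv_smul_eq_iff] at this
      exact this
    calc (MulAction.orbit N α).ncard ≤ (MulAction.fixedBy Ω h).ncard :=
          Set.ncard_le_ncard hsub (Set.toFinite _)
      _ = Nat.card (MulAction.fixedBy Ω h) := (Nat.card_coe_set_eq _).symm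
      _ ≤ 2 := hz
  have hsodd : ¬ 2 ∣ Nat.card (MulAction.stabilizer N α) := by
    intro e
    have : Fact (Nat.Prime 2) := ⟨Nat.prime_two⟩
    obtain ⟨⟨⟨z, hzN⟩, hzα⟩, hzo⟩ := exists_prime_orderOf_dvd_card' 2 e
    have hzo' : orderOf z = 2 := by
      have e1 : orderOf (⟨⟨z, hzN⟩, hzα⟩ : MulAction.stabilizer N α) = orderOf (⟨z, hzN⟩ : N) :=
        Subgroup.orderOf_mk _ _
      have e2 : orderOf (⟨z, hzN⟩ : N) = orderOf z := Subgroup.orderOf_mk _ _
      rw [← e2, ← e1, hzo]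
    apply hno z α
    · rintro rfl
      rw [orderOf_one] at hzo'
      omega
    · rw [← pow_two, ← hzo']; exact pow_orderOf_eq_one z
    · exact hzα
  have hcop : Nat.Coprime 4 (Nat.card (MulAction.stabilizer N α)) :=
    Nat.Coprime.pow_left 2 ((Nat.Prime.coprime_iff_not_dvd Nat.prime_two).2 hsodd)
  have h4 : 4 ∣ (MulAction.orbit N α).ncard :=
    hcop.dvd_of_dvd_mul_left ⟨Nat.card T, h1⟩
  have hpos : 0 < (MulAction.orbit N α).ncard := by
    rw [Set.ncard_pos (Set.toFinite _)]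
    exact MulAction.nonempty_orbit α
  have := Nat.le_of_dvd hpos h4
  omega

include hm in
lemma case_diag (hfix : ∀ g : Cfsg.Sz F m, g ≠ 1 → Nat.card (MulAction.fixedBy Ω g) ≤ 2)
    (hno : ∀ (z : Cfsg.Sz F m) (α : Ω), z ≠ 1 → z * z = 1 → z • α ≠ α)
    {k : Fˣ} (hk : k ≠ 1) {α : Ω} (hα : dG hF k • α = α) :
    MulAction.stabilizer (Cfsg.Sz F m) α = DG hF := by
  have hz := hfix _ (dG_ne_one hF hk)
  have hd : ∀ l, dG hF l • α = α := by
    intro l
    obtain ⟨j, rfl⟩ := unit_sqrt hF l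
    rw [dG_mul]
    have hc : ∀ j, ((dG hF j)⁻¹ * dG hF k * dG hF j) • α = α := by
      intro j
      rw [mul_assoc, dG_comm hF k j, inv_mul_cancel_left, hα]
    apply sq_mem_stab hz hα (hc j)
    rw [← dG_mul]
    exact hc _
  have hodd : ∀ g : Cfsg.Sz F m, g • α = α → ¬ 2 ∣ orderOf g := fun g hg => odd_of_no_inv hno hg
  have ht1 : ∀ (x : Cfsg.Sz F m) (a c : F), (x * tG hF a c * x⁻¹) • α = α → tG hF a c = 1 := by
    intro x a c h
    by_contra hne
    have h4 : (x * tG hF a c * x⁻¹) ^ 4 = 1 := by rw [conj_pow, tG_pow_four]; group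
    have h6 : orderOf (x * tG hF a c * x⁻¹) ∣ 2 ^ 2 := orderOf_dvd_of_pow_eq_one h4
    obtain ⟨j, _, hj⟩ := (Nat.dvd_prime_pow Nat.prime_two).1 h6
    rcases Nat.eq_zero_or_pos j with rfl | hj0
    · rw [pow_zero] at hj
      exact conj_ne_one hne (orderOf_eq_one_iff.1 hj)
    · exact hodd _ h (hj ▸ dvd_pow_self 2 hj0.ne')
  apply le_antisymm _ (by rintro _ ⟨l, rfl⟩; exact hd l)
  have hw : wG hF • α ≠ α := hno _ _ (by
    intro e
    have := wG_inf hF
    rw [e, one_smul] at this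
    exact ptS_ne_inf m 0 0 this.symm) (wG_mul_self hF)
  have hne : MulAction.stabilizer (Cfsg.Sz F m) α ≠ ⊤ := by
    intro e
    apply hw
    have : wG hF ∈ MulAction.stabilizer (Cfsg.Sz F m) α := by rw [e]; trivial
    exact this
  rcases Sz_subgroups hF hm _ hne with (⟨P, hP⟩ | ⟨U, hc, hcard, hU⟩) | ⟨x, K₁, _, _, _, _, hMK⟩
  · obtain ⟨p, hp, hpP⟩ := normalizer_sylow hF hm P
    have hkp : dG hF k • p = p := (hpP _).1 (hP hα)
    intro y hy
    have hyp : y • p = p := (hpP _).1 (hP hy)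
    rcases dG_fix hF hk hp hkp with rfl | rfl
    · obtain ⟨a, c, l, rfl⟩ := nf_inf hF hm hyp
      have h1 : (1 * tG hF a c * 1⁻¹) • α = α := by
        have hy' : (tG hF a c * dG hF l) • α = α := hy
        rw [mul_smul, hd] at hy'
        simpa using hy'
      rw [ht1 1 a c h1, one_mul]
      exact dG_mem_DG hF l
    · obtain ⟨a, c, l, e⟩ := nf_inf hF hm (g := wG hF * y * wG hF)
        (by rw [mul_smul, mul_smul, wG_inf, hyp, wG_zero])
      have hy2 : y = (wG hF * tG hF a c * (wG hF)⁻¹) * dG hF l⁻¹ := by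
        have : y = wG hF * (wG hF * y * wG hF) * wG hF := by
          calc y = (wG hF * wG hF) * y * (wG hF * wG hF) := by rw [wG_mul_self]; group
            _ = _ := by group
        rw [this, e, wG_inv]
        calc wG hF * (tG hF a c * dG hF l) * wG hF = wG hF * tG hF a c * (dG hF l * wG hF) := by group
          _ = wG hF * tG hF a c * (wG hF * dG hF l⁻¹) := by rw [wG_dG, inv_inv]
          _ = _ := by group
      have h1 : (wG hF * tG hF a c * (wG hF)⁻¹) • α = α := by
        have hy' : y • α = α := hy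
        rw [hy2, mul_smul, hd] at hy'
        exact hy'
      rw [hy2, ht1 _ a c h1]
      have : wG hF * 1 * (wG hF)⁻¹ * dG hF l⁻¹ = dG hF l⁻¹ := by group
      rw [this]
      exact dG_mem_DG hF _
  · obtain ⟨hTor, hN⟩ := torus_classify hF hm hc hcard
    have hkU : dG hF k ∈ U := odd_mem_of_normalizer hN (hU hα) (hodd _ hα)
    have hUD : U = DG hF := by
      rw [← hTor _ hkU (dG_ne_one hF hk), (isTor_DG hF hm) _ (dG_mem_DG hF k) (dG_ne_one hF hk)]
    intro y hy
    rw [← hUD]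
    exact odd_mem_of_normalizer hN (hU hy) (hodd _ hy)
  · exfalso
    have h1 : wG hF ∈ (MulAction.stabilizer (Cfsg.Sz F m) α).map (MulAut.conj x).toMonoidHom := by
      rw [hMK]; exact wG_mem_GK hF _
    rw [mem_map_conj] at h1
    apply hno _ α _ _ h1
    · have := conj_ne_one (x := x⁻¹) (t := wG hF) (by
        intro e
        have := wG_inf hF
        rw [e, one_smul] at this
        exact ptS_ne_inf m 0 0 this.symm)
      rwa [inv_inv] at this
    · calc _ = x⁻¹ * (wG hF * wG hF) * x := by group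
        _ = 1 := by rw [wG_mul_self]; group

include hF hm in
/-- fixity-two actions of the Suzuki group -/
theorem fixity_Sz (htr : MulAction.IsPretransitive (Cfsg.Sz F m) Ω)
    (hfix : ∀ g : Cfsg.Sz F m, g ≠ 1 → Nat.card (MulAction.fixedBy Ω g) ≤ 2)
    (hex : ∃ (g : Cfsg.Sz F m) (α : Ω), g ≠ 1 ∧ g • α = α)
    (hnt : ∃ (g : Cfsg.Sz F m) (α : Ω), g • α ≠ α) :
    (Fintype.card Ω = (2 ^ (2 * m + 1)) ^ 2 + 1 ∧
      MulAction.IsMultiplyPretransitive (Cfsg.Sz F m) Ω 2) ∨
    (Fintype.card Ω = (2 ^ (2 * m + 1)) ^ 2 * ((2 ^ (2 * m + 1)) ^ 2 + 1) ∧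
      ∀ α : Ω, Nat.card (MulAction.stabilizer (Cfsg.Sz F m) α) = 2 ^ (2 * m + 1) - 1) := by
  have hnt' : ∀ α : Ω, ∃ g : Cfsg.Sz F m, g • α ≠ α := by
    intro α
    by_contra h
    push Not at h
    obtain ⟨g, α₀, hg⟩ := hnt
    obtain ⟨y, rfl⟩ := MulAction.exists_smul_eq (Cfsg.Sz F m) α α₀
    apply hg
    rw [← mul_smul, h, h]
  by_cases hinv : ∃ (z : Cfsg.Sz F m) (α : Ω), z ≠ 1 ∧ z * z = 1 ∧ z • α = α
  · left
    obtain ⟨z, α, hz1, hz2, hzα⟩ := hinv
    obtain ⟨p, hp, hzp⟩ := inv_has_fix hF hm hz1 hz2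
    obtain ⟨x, hx⟩ := exists_to_inf hF hp
    obtain ⟨b, hb, e⟩ := inv_fix_inf hF hm (z := x * z * x⁻¹) (conj_ne_one hz1)
      (by
        calc _ = x * (z * z) * x⁻¹ := by group
          _ = 1 := by rw [hz2]; group)
      (by rw [mul_smul, mul_smul, ← hx, inv_smul_smul, hzp])
    have hα' : tG hF 0 b • (x • α) = x • α := by
      rw [← e, mul_smul, mul_smul, inv_smul_smul, hzα]
    exact two_trans_of_stab hF hm htr (case_even hF hm hfix hb hα' (hnt' _))
  · right
    push Not at hinv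
    have hno : ∀ (z : Cfsg.Sz F m) (α : Ω), z ≠ 1 → z * z = 1 → z • α ≠ α :=
      fun z α h1 h2 => hinv z α h1 h2
    obtain ⟨h, α, hh1, hα⟩ := hex
    rcases trichotomy hF hm hh1 with ⟨x, a, b, hab, e⟩ | ⟨x, k, hk, e⟩ | hf
    · exfalso
      have hh' : h = x⁻¹ * tG hF a b * x⁻¹⁻¹ := by rw [← e]; group
      have h4 : h ^ 4 = 1 := by rw [hh', conj_pow, tG_pow_four]; group
      have h6 : orderOf h ∣ 2 ^ 2 := orderOf_dvd_of_pow_eq_one h4
      obtain ⟨j, _, hj⟩ := (Nat.dvd_prime_pow Nat.prime_two).1 h6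
      rcases Nat.eq_zero_or_pos j with rfl | hj0
      · rw [pow_zero] at hj
        exact hh1 (orderOf_eq_one_iff.1 hj)
      · exact odd_of_no_inv hno hα (hj ▸ dvd_pow_self 2 hj0.ne')
    · have hα' : dG hF k • (x • α) = x • α := by
        rw [← e, mul_smul, mul_smul, inv_smul_smul, hα]
      have hst := case_diag hF hm hfix hno hk hα'
      have hcard : ∀ β : Ω, Nat.card (MulAction.stabilizer (Cfsg.Sz F m) β) = 2 ^ (2 * m + 1) - 1 := by
        intro β
        obtain ⟨y, rfl⟩ := MulAction.exists_smul_eq (Cfsg.Sz F m) (x • α) β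
        rw [MulAction.stabilizer_smul_eq_stabilizer_map_conj, hst]
        exact (card_map_conj (DG hF) y).trans (card_DG hF)
      refine ⟨?_, hcard⟩
      have h1 := Subgroup.card_mul_index (MulAction.stabilizer (Cfsg.Sz F m) α)
      rw [MulAction.index_stabilizer, MulAction.orbit_eq_univ, Set.ncard_univ, hcard,
        card_Sz hF hm, Nat.card_eq_fintype_card] at h1
      have hpos : 0 < 2 ^ (2 * m + 1) - 1 := by
        have := eight_le_q hm
        omega
      apply Nat.eq_of_mul_eq_mul_left hpos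
      rw [h1]; ring
    · exact absurd hα (fun hα => case_fpf hF hm hfix hno hf hα)

end

end Cfsg.Agent.Lib.Helper8
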