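import Cfsg.Agent.Lib.Helper8.SzFixVec
import Cfsg.Agent.Lib.Helper8.PrimeGraphExt

set_option autoImplicit false
open scoped Pointwise MatrixGroups

namespace Cfsg.Agent.Lib.Helper8

lemma exists_small_model (H₀ : Type*) [Group H₀] [Finite H₀] :
    ∃ (H : Type) (_ : Group H) (_ : Fintype H), Nonempty (H ≃* H₀) := by
  let e : Fin (Nat.card H₀) ≃ H₀ := (Finite.equivFin H₀).symm
  exact ⟨Fin (Nat.card H₀), e.group, inferInstance, ⟨e.mulEquiv⟩⟩

section

variable {F : Type*} [Field F] [CharP F 2] [Fintype F] {m : ℕ}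
  (hF : Fintype.card F = 2 ^ (2 * m + 1)) (hm : 1 ≤ m)

/-- the module -/
abbrev VV (F : Type*) (k : ℕ) := Multiplicative (Fin k → Fin 4 → F)

/-- the action -/
def phiV (F : Type*) [Field F] (m k : ℕ) : Cfsg.Sz F m →* MulAut (VV F k) :=
  (MulAutMultiplicative (Fin k → Fin 4 → F)).symm.toMonoidHom.comp
    (DistribMulAction.toAddAut (Cfsg.Sz F m) (Fin k → Fin 4 → F))

omit [CharP F 2] [Fintype F] in
lemma phiV_apply (k : ℕ) (g : Cfsg.Sz F m) (w : VV F k) :
    (phiV F m k g w).toAdd = g • w.toAdd := rfl

/-- the split extension of `k` copies of the natural module by the Suzuki group -/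
abbrev HH (F : Type*) [Field F] (m k : ℕ) := VV F k ⋊[phiV F m k] (Cfsg.Sz F m)

include hF hm in
theorem exists_ext {G' : Type*} [Group G'] (e : Cfsg.Sz F m ≃* G') (N : ℕ) :
    ∃ (H : Type) (_ : Group H) (_ : Fintype H), N < Fintype.card H ∧
      ((∀ r : ℕ, r.Prime → (r ∣ Nat.card G' ↔ r ∣ Nat.card H)) ∧
      (∀ r s : ℕ, r.Prime → s.Prime → r ≠ s →
        ((∃ x : G', orderOf x = r * s) ↔ (∃ y : H, orderOf y = r * s)))) := by
  have hfin : Finite (HH F m N) := Finite.of_equiv _ SemidirectProduct.equivProd.symm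
  obtain ⟨H, iG, iF, ⟨f⟩⟩ := exists_small_model (HH F m N)
  have hcV : Nat.card (VV F N) = 2 ^ ((2 * m + 1) * 4 * N) := by
    show Nat.card (Fin N → Fin 4 → F) = _
    rw [Nat.card_fun, Nat.card_fun, Nat.card_eq_fintype_card, Nat.card_eq_fintype_card,
      Nat.card_eq_fintype_card, hF, Fintype.card_fin, Fintype.card_fin, ← pow_mul, ← pow_mul,
      mul_assoc]
  have hcH : Nat.card H = 2 ^ ((2 * m + 1) * 4 * N) * Nat.card G' := by
    rw [Nat.card_congr f.toEquiv, SemidirectProduct.card, hcV, Nat.card_congr e.toEquiv]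
  have hcG : Nat.card G' =
      (2 ^ (2 * m + 1)) ^ 2 * ((2 ^ (2 * m + 1)) ^ 2 + 1) * (2 ^ (2 * m + 1) - 1) := by
    rw [← Nat.card_congr e.toEquiv, card_Sz hF hm]
  have h2G : 2 ∣ Nat.card G' := by
    rw [hcG, mul_assoc]
    apply Dvd.dvd.mul_right
    rw [← pow_mul]
    exact dvd_pow_self 2 (by omega)
  have hGpos : 0 < Nat.card G' := by
    have : Finite G' := Finite.of_equiv _ e.toEquiv
    exact Nat.card_pos
  refine ⟨H, iG, iF, ?_, ?_, ?_⟩
  · rw [← Nat.card_eq_fintype_card, hcH]
    calc N < 2 ^ N := Nat.lt_two_pow_self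
      _ ≤ 2 ^ ((2 * m + 1) * 4 * N) := Nat.pow_le_pow_right (by norm_num) (by nlinarith)
      _ ≤ _ := Nat.le_mul_of_pos_right _ hGpos
  · intro r hr
    rw [hcH]
    constructor
    · intro h; exact Dvd.dvd.mul_left h _
    · intro h
      rcases (Nat.Prime.dvd_mul hr).1 h with h | h
      · have := hr.dvd_of_dvd_pow h
        rw [(Nat.prime_dvd_prime_iff_eq hr Nat.prime_two).1 this]
        exact h2G
      · exact h
  · intro r s hr hs hrs
    have key := prime_graph_ext (G := G') (H := HH F m N)
      (e.toMonoidHom.comp SemidirectProduct.rightHom)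
      (SemidirectProduct.inr.comp e.symm.toMonoidHom)
      (SemidirectProduct.inr_injective.comp e.symm.injective) ?_ ?_ r s hr hs hrs
    · rw [key]
      constructor
      · rintro ⟨y, hy⟩
        exact ⟨f.symm y, by rw [MulEquiv.orderOf_eq, hy]⟩
      · rintro ⟨y, hy⟩
        exact ⟨f y, by rw [MulEquiv.orderOf_eq, hy]⟩
    · intro n hn
      have hn' : n.right = 1 := by
        have : e n.right = 1 := hn
        simpa using this
      ext1
      · rw [SemidirectProduct.mul_left, hn', map_one, SemidirectProduct.one_left]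
        show n.left * n.left = 1
        apply Multiplicative.toAdd.injective
        show n.left.toAdd + n.left.toAdd = 0
        funext i j
        exact CharTwo.add_self_eq_zero _
      · rw [SemidirectProduct.mul_right, hn', SemidirectProduct.one_right, mul_one]
    · intro y n s hs hs2 hy hn hc
      have hn' : n.right = 1 := by
        have : e n.right = 1 := hn
        simpa using this
      have hy' : orderOf y.right = s := by
        rw [← hy]
        exact (MulEquiv.orderOf_eq e y.right).symm
      have h1 := congrArg SemidirectProduct.left hc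
      rw [SemidirectProduct.mul_left, SemidirectProduct.mul_left, hn', map_one] at h1
      have h2 : y.left * (phiV F m N y.right) n.left =
          y.left * n.left := by
        rw [h1, mul_comm]; rfl
      have h3 := mul_left_cancel h2
      have h4 : y.right • n.left.toAdd = n.left.toAdd := congrArg Multiplicative.toAdd h3
      have h5 : n.left.toAdd = 0 := by
        funext i
        exact no_fixed_vec hF hm hs hs2 hy' (congrFun h4 i)
      ext1
      · exact Multiplicative.toAdd.injective h5
      · exact hn'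

end

end Cfsg.Agent.Lib.Helper8
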