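import Cfsg.Agent.Lib.Helper8.SzSolTwoC
import Cfsg.Agent.Lib.Helper8.SzPartition

set_option autoImplicit false
set_option linter.unusedSectionVars false

namespace Cfsg.Agent.Lib.Helper8

lemma eq_one_of_dvd_plus_minus {m a : ℕ} (hm : 1 ≤ m)
    (h1 : a ∣ 2 ^ (2 * m + 1) + 2 ^ (m + 1) + 1) (h2 : a ∣ 2 ^ (2 * m + 1) - 2 ^ (m + 1) + 1) :
    a = 1 := by
  have hlt := R_lt_q hm
  have h3 : a ∣ 2 ^ (m + 2) := by
    have h := Nat.dvd_sub h1 h2
    have e : 2 ^ (2 * m + 1) + 2 ^ (m + 1) + 1 - (2 ^ (2 * m + 1) - 2 ^ (m + 1) + 1) =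
        2 ^ (m + 2) := by
      rw [pow_succ 2 (m + 1)]; omega
    rwa [e] at h
  obtain ⟨j, _, rfl⟩ := (Nat.dvd_prime_pow Nat.prime_two).1 h3
  rcases Nat.eq_zero_or_pos j with rfl | hj
  · simp
  · exfalso
    exact odd_of_mem_set hm (n := 2 ^ (2 * m + 1) + 2 ^ (m + 1) + 1) (by simp)
      ((dvd_pow_self 2 hj.ne').trans h1)

lemma card_sol_isConj {G : Type*} [Group G] {x x' : G} (h : IsConj x x') :
    Nat.card {y : G // Group.IsSolvable (Subgroup.closure ({x, y} : Set G))} =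
      Nat.card {y : G // Group.IsSolvable (Subgroup.closure ({x', y} : Set G))} := by
  obtain ⟨g, rfl⟩ := isConj_iff.1 h
  exact (card_sol_equiv (MulAut.conj g) x).symm

lemma orderOf_isConj {G : Type*} [Group G] {x x' : G} (h : IsConj x x') :
    orderOf x = orderOf x' := by
  obtain ⟨g, rfl⟩ := isConj_iff.1 h
  exact ((MulAut.conj g).orderOf_eq x).symm

section

variable {F : Type*} [Field F] [CharP F 2] [Fintype F] {m : ℕ}
  (hF : Fintype.card F = 2 ^ (2 * m + 1)) (hm : 1 ≤ m)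

include hF hm in
theorem Sz_solubilizer (x : Cfsg.Sz F m) :
    (orderOf x = 2 → Nat.card {y : Cfsg.Sz F m //
      Group.IsSolvable (Subgroup.closure ({x, y} : Set (Cfsg.Sz F m)))} =
        (2 ^ (2 * m + 1)) ^ 2 * (4 * 2 ^ (2 * m + 1) - 3)) ∧
    (orderOf x = 4 → Nat.card {y : Cfsg.Sz F m //
      Group.IsSolvable (Subgroup.closure ({x, y} : Set (Cfsg.Sz F m)))} =
        (2 ^ (2 * m + 1)) ^ 2 * (2 ^ (2 * m + 1) + 3)) ∧
    (x ≠ 1 → orderOf x ∣ 2 ^ (2 * m + 1) - 1 → Nat.card {y : Cfsg.Sz F m //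
      Group.IsSolvable (Subgroup.closure ({x, y} : Set (Cfsg.Sz F m)))} =
        2 * (2 ^ (2 * m + 1)) ^ 2 * (2 ^ (2 * m + 1) - 1)) ∧
    (x ≠ 1 → orderOf x ∣ 2 ^ (2 * m + 1) + 2 ^ (m + 1) + 1 → Nat.card {y : Cfsg.Sz F m //
      Group.IsSolvable (Subgroup.closure ({x, y} : Set (Cfsg.Sz F m)))} =
        4 * (2 ^ (2 * m + 1) + 2 ^ (m + 1) + 1)) ∧
    (x ≠ 1 → orderOf x ∣ 2 ^ (2 * m + 1) - 2 ^ (m + 1) + 1 → Nat.card {y : Cfsg.Sz F m //
      Group.IsSolvable (Subgroup.closure ({x, y} : Set (Cfsg.Sz F m)))} =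
        4 * (2 ^ (2 * m + 1) - 2 ^ (m + 1) + 1)) := by
  by_cases hx1 : x = 1
  · subst hx1
    refine ⟨fun h => ?_, fun h => ?_, fun h => absurd rfl h, fun h => absurd rfl h,
      fun h => absurd rfl h⟩
    · rw [orderOf_one] at h; omega
    · rw [orderOf_one] at h; omega
  have ho1 : orderOf x ≠ 1 := fun h => hx1 (orderOf_eq_one_iff.1 h)
  rcases trichotomy hF hm hx1 with ⟨g, a, b, hab, e⟩ | ⟨g, k, hk, e⟩ | hf
  · have hc : IsConj x (tG hF a b) := isConj_iff.2 ⟨g, e⟩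
    have ho := orderOf_isConj hc
    have h4 : orderOf x ∣ 2 ^ 2 := by
      rw [ho]; exact orderOf_dvd_of_pow_eq_one (tG_pow_four hF a b)
    have hodd : ∀ n, n ∈ ({2 ^ (2 * m + 1) - 1, 2 ^ (2 * m + 1) + 2 ^ (m + 1) + 1,
        2 ^ (2 * m + 1) - 2 ^ (m + 1) + 1} : Set ℕ) → ¬ orderOf x ∣ n := by
      intro n hn hd
      obtain ⟨j, _, hj⟩ := (Nat.dvd_prime_pow Nat.prime_two).1 h4
      rcases Nat.eq_zero_or_pos j with rfl | hj0
      · exact ho1 (by simpa using hj)
      · exact odd_of_mem_set hm hn ((hj ▸ dvd_pow_self 2 hj0.ne').trans hd)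
    refine ⟨fun h => ?_, fun h => ?_, fun _ h => absurd h (hodd _ (by simp)),
      fun _ h => absurd h (hodd _ (by simp)), fun _ h => absurd h (hodd _ (by simp))⟩
    · have ha : a = 0 := by
        by_contra ha
        have h2 : tG hF a b ^ 2 = 1 := by rw [← h, ho]; exact pow_orderOf_eq_one _
        rw [pow_two, tG_sq] at h2
        exact tG_zero_ne_one hF (mul_ne_zero ha ((map_ne_zero (th m)).2 ha)) h2
      subst ha
      have hb : b ≠ 0 := fun hb => hab ⟨rfl, hb⟩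
      rw [card_sol_isConj hc, ← card_sol_isConj (tG_zero_conj hF hb), card_sol_z hF hm]
    · have ha : a ≠ 0 := by
        rintro rfl
        have hb : b ≠ 0 := fun hb => hab ⟨rfl, hb⟩
        rw [ho, tG_zero_order hF hb] at h
        omega
      rw [card_sol_isConj hc, card_sol_isConj (tG_conj_one hF ha b), card_sol_x hF hm]
  · have hc : IsConj x (dG hF k) := isConj_iff.2 ⟨g, e⟩
    have ho := orderOf_isConj hc
    have htr : trG x ≠ 0 := by
      rw [trG_of_isConj hc]; exact trG_dG_ne_zero hF hm hk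
    have hodd := odd_order_of_trG hF hm htr
    have hd : orderOf x ∣ 2 ^ (2 * m + 1) - 1 := by
      rw [ho, ← card_DG hF, ← Subgroup.orderOf_mk _ (dG_mem_DG hF k)]
      exact orderOf_dvd_natCard _
    refine ⟨fun h => absurd (by rw [h]) hodd, fun h => absurd (by rw [h]; norm_num) hodd,
      fun _ _ => ?_, fun _ h => ?_, fun _ h => ?_⟩
    · rw [card_sol_isConj hc, card_sol_dG hF hm hk]
    · exact absurd (eq_one_of_dvd_dvd (h.trans (plus_dvd m hm)) hd) ho1
    · exact absurd (eq_one_of_dvd_dvd (h.trans (minus_dvd m hm)) hd) ho1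
  · have htr := trG_ne_zero_of_fpf hF hm hf
    have hodd := odd_order_of_trG hF hm htr
    have hd : orderOf x ∣ Nat.card (Subgroup.centralizer ({x} : Set (Cfsg.Sz F m))) := by
      rw [← Subgroup.orderOf_mk _ (self_mem_centralizer x)]
      exact orderOf_dvd_natCard _
    refine ⟨fun h => absurd (by rw [h]) hodd, fun h => absurd (by rw [h]; norm_num) hodd,
      fun _ h => ?_, fun _ h => ?_, fun _ h => ?_⟩
    · exact absurd (eq_one_of_dvd_dvd (hd.trans (card_tor_dvd hF hm hf)) h) ho1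
    · rw [card_sol_fpf hF hm hf]
      rcases (card_cent_fpf hF hm hf).1 with hc | hc
      · rw [hc]
      · rw [hc] at hd
        exact absurd (eq_one_of_dvd_plus_minus hm h hd) ho1
    · rw [card_sol_fpf hF hm hf]
      rcases (card_cent_fpf hF hm hf).1 with hc | hc
      · rw [hc] at hd
        exact absurd (eq_one_of_dvd_plus_minus hm hd h) ho1
      · rw [hc]

end

end Cfsg.Agent.Lib.Helper8
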