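import Cfsg.Agent.Lib.Helper8.SzSolv

set_option autoImplicit false
set_option linter.unusedSectionVars false

namespace Cfsg.Agent.Lib.Helper8

section

variable {F : Type*} [Field F] [CharP F 2] [Fintype F] {m : ℕ}
  (hF : Fintype.card F = 2 ^ (2 * m + 1)) (hm : 1 ≤ m)

include hF hm in
lemma trG_ne_zero_of_fpf {x : Cfsg.Sz F m} (hf : Fpf x) : trG x ≠ 0 := by
  obtain ⟨b, d, hb, hd, hc⟩ := fpf_conj_zS hF hm hf
  rw [trG_of_isConj hc, trG_zS]
  simp [hb, hd]

include hF hm in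
lemma trG_dG_ne_zero {k : Fˣ} (hk : k ≠ 1) : trG (dG hF k) ≠ 0 := by
  obtain ⟨b, d, hb, hd, hc⟩ := dG_conj_zS hF hm hk
  rw [trG_of_isConj hc, trG_zS]
  simp [hb, hd]

include hF hm in
/-- the solubilizer of a fixed-point-free element is the normaliser of its centraliser -/
theorem card_sol_fpf {x : Cfsg.Sz F m} (hf : Fpf x) :
    Nat.card {y : Cfsg.Sz F m // Group.IsSolvable (Subgroup.closure ({x, y} : Set (Cfsg.Sz F m)))} =
      4 * Nat.card (Subgroup.centralizer ({x} : Set (Cfsg.Sz F m))) := by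
  have htr := trG_ne_zero_of_fpf hF hm hf
  have hiff : ∀ y : Cfsg.Sz F m,
      Group.IsSolvable (Subgroup.closure ({x, y} : Set (Cfsg.Sz F m))) ↔
      y ∈ Subgroup.normalizer ((Subgroup.centralizer ({x} : Set (Cfsg.Sz F m)) :
        Subgroup (Cfsg.Sz F m)) : Set (Cfsg.Sz F m)) := by
    intro y
    rw [sol_iff hF hm]
    constructor
    · rintro (⟨p, hp, hx, _⟩ | ⟨U, hU, hx, hy⟩)
      · exact absurd hx (hf p hp)
      · rw [← hU.eq_cent hF hm (fpf_ne_one hf) (odd_order_of_trG hF hm htr) hx]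
        exact hy
    · intro hy
      exact Or.inr ⟨_, isTorus_cent hF hm htr, Subgroup.le_normalizer (self_mem_centralizer x), hy⟩
  rw [← (card_cent_fpf hF hm hf).2]
  exact Nat.card_congr (Equiv.subtypeEquivRight hiff)

include hF hm in
theorem card_sol_dG {k : Fˣ} (hk : k ≠ 1) :
    Nat.card {y : Cfsg.Sz F m //
      Group.IsSolvable (Subgroup.closure ({dG hF k, y} : Set (Cfsg.Sz F m)))} =
      2 * (2 ^ (2 * m + 1)) ^ 2 * (2 ^ (2 * m + 1) - 1) := by
  classical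
  have htr := trG_dG_ne_zero hF hm hk
  have hcent : Subgroup.centralizer ({dG hF k} : Set (Cfsg.Sz F m)) = DG hF :=
    (isTor_DG hF hm) _ (dG_mem_DG hF k) (dG_ne_one hF hk)
  have hiff : ∀ y : Cfsg.Sz F m,
      Group.IsSolvable (Subgroup.closure ({dG hF k, y} : Set (Cfsg.Sz F m))) ↔
      y ∈ ((MulAction.stabilizer (Cfsg.Sz F m) (Cfsg.suzukiPointInfinity F) : Set (Cfsg.Sz F m)) ∪
        (MulAction.stabilizer (Cfsg.Sz F m) (ptS m (0 : F) 0) : Set (Cfsg.Sz F m))) ∪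
        Set.range (fun j : Fˣ => wG hF * dG hF j) := by
    intro y
    rw [sol_iff hF hm]
    constructor
    · rintro (⟨p, hp, hx, hy⟩ | ⟨U, hU, hx, hy⟩)
      · left
        rcases dG_fix hF hk hp hx with rfl | rfl
        · exact Or.inl hy
        · exact Or.inr hy
      · rw [hU.eq_cent hF hm (dG_ne_one hF hk) (odd_order_of_trG hF hm htr) hx, hcent,
          mem_normalizer_DG hF hm] at hy
        rcases hy with ⟨j, rfl⟩ | ⟨j, rfl⟩
        · left; left
          exact dG_inf hF j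
        · right
          exact ⟨j, rfl⟩
    · rintro ((hy | hy) | ⟨j, rfl⟩)
      · exact Or.inl ⟨_, ptInf_mem m, dG_inf hF k, hy⟩
      · exact Or.inl ⟨_, ptS_mem m 0 0, dG_pt_zero hF k, hy⟩
      · right
        refine ⟨DG hF, ?_, Subgroup.le_normalizer (dG_mem_DG hF k),
          (mem_normalizer_DG hF hm).2 (Or.inr ⟨j, rfl⟩)⟩
        rw [← hcent]
        exact isTorus_cent hF hm htr
  rw [Nat.card_congr (Equiv.subtypeEquivRight hiff), Nat.card_coe_set_eq]
  have c1 : (MulAction.stabilizer (Cfsg.Sz F m) (Cfsg.suzukiPointInfinity F) :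
      Set (Cfsg.Sz F m)).ncard = (2 ^ (2 * m + 1)) ^ 2 * (2 ^ (2 * m + 1) - 1) := by
    rw [← card_stab_inf hF hm, ← Nat.card_coe_set_eq]; rfl
  have c2 : (MulAction.stabilizer (Cfsg.Sz F m) (ptS m (0 : F) 0) :
      Set (Cfsg.Sz F m)).ncard = (2 ^ (2 * m + 1)) ^ 2 * (2 ^ (2 * m + 1) - 1) := by
    rw [← card_stab_inf hF hm, ← wG_inf hF, MulAction.stabilizer_smul_eq_stabilizer_map_conj,
      ← Nat.card_coe_set_eq]
    exact card_map_conj _ _
  have c3 : ((MulAction.stabilizer (Cfsg.Sz F m) (Cfsg.suzukiPointInfinity F) :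
      Set (Cfsg.Sz F m)) ∩ (MulAction.stabilizer (Cfsg.Sz F m) (ptS m (0 : F) 0) :
      Set (Cfsg.Sz F m))).ncard = 2 ^ (2 * m + 1) - 1 := by
    have : ((MulAction.stabilizer (Cfsg.Sz F m) (Cfsg.suzukiPointInfinity F) :
      Set (Cfsg.Sz F m)) ∩ (MulAction.stabilizer (Cfsg.Sz F m) (ptS m (0 : F) 0) :
      Set (Cfsg.Sz F m))) = (DG hF : Set (Cfsg.Sz F m)) := by
      ext y
      constructor
      · rintro ⟨h1, h2⟩
        obtain ⟨j, rfl⟩ := nf_two hF hm h1 h2
        exact dG_mem_DG hF j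
      · rintro ⟨j, rfl⟩
        exact ⟨dG_inf hF j, dG_pt_zero hF j⟩
    rw [this, ← card_DG hF, ← Nat.card_coe_set_eq]; rfl
  have c4 : (Set.range (fun j : Fˣ => wG hF * dG hF j)).ncard = 2 ^ (2 * m + 1) - 1 := by
    rw [← Nat.card_coe_set_eq, Nat.card_range_of_injective, Nat.card_eq_fintype_card,
      Fintype.card_units, hF]
    intro j j' h
    exact dG_injective hF (mul_left_cancel h)
  have hdisj : Disjoint ((MulAction.stabilizer (Cfsg.Sz F m) (Cfsg.suzukiPointInfinity F) :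
      Set (Cfsg.Sz F m)) ∪ (MulAction.stabilizer (Cfsg.Sz F m) (ptS m (0 : F) 0) :
      Set (Cfsg.Sz F m))) (Set.range (fun j : Fˣ => wG hF * dG hF j)) := by
    rw [Set.disjoint_right]
    rintro _ ⟨j, rfl⟩ (h | h)
    · have h' : (wG hF * dG hF j) • Cfsg.suzukiPointInfinity F = Cfsg.suzukiPointInfinity F := h
      rw [mul_smul, dG_inf, wG_inf] at h'
      exact ptS_ne_inf m _ _ h'
    · have h' : (wG hF * dG hF j) • ptS m (0 : F) 0 = ptS m 0 0 := h
      rw [mul_smul, dG_pt_zero, wG_zero] at h'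
      exact ptS_ne_inf m _ _ h'.symm
  rw [Set.ncard_union_eq hdisj (Set.toFinite _) (Set.toFinite _), c4]
  have h5 := Set.ncard_union_add_ncard_inter
    (MulAction.stabilizer (Cfsg.Sz F m) (Cfsg.suzukiPointInfinity F) : Set (Cfsg.Sz F m))
    (MulAction.stabilizer (Cfsg.Sz F m) (ptS m (0 : F) 0) : Set (Cfsg.Sz F m))
  rw [c1, c2, c3] at h5
  have hq := eight_le_q hm
  generalize 2 ^ (2 * m + 1) = q at h5 hq ⊢
  have : q ^ 2 * (q - 1) + q ^ 2 * (q - 1) = 2 * q ^ 2 * (q - 1) := by ring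
  omega

end

end Cfsg.Agent.Lib.Helper8
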