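import Cfsg.Agent.Lib.Helper8.SzSolOdd

set_option autoImplicit false
set_option linter.unusedSectionVars false

namespace Cfsg.Agent.Lib.Helper8

lemma comm_244 {G : Type*} [Group G] {a b : G} (ha : a ^ 4 = 1) (hb : b * b = 1)
    (hab : (a * b) ^ 4 = 1) :
    (a * a * b) * (a * (a * a * b) * a⁻¹) = (a * (a * a * b) * a⁻¹) * (a * a * b) := by
  have h3 : a * a * a = a⁻¹ := by
    apply eq_inv_of_mul_eq_one_left
    rw [← ha]; simp only [pow_succ, pow_zero, one_mul]
  have hbi : b⁻¹ = b := inv_eq_of_mul_eq_one_left hb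
  have key : b * a⁻¹ * b * a⁻¹ = a * b * a * b := by
    have h1 : (a * b * a * b) * (a * b * a * b) = 1 := by
      rw [← hab]; simp only [pow_succ, pow_zero, one_mul, mul_assoc]
    have h2 : (a * b * a * b)⁻¹ = a * b * a * b := inv_eq_of_mul_eq_one_left h1
    rw [← h2]
    simp only [mul_inv_rev, hbi, mul_assoc]
  calc (a * a * b) * (a * (a * a * b) * a⁻¹) = a * a * (b * (a * a * a) * b * a⁻¹) := by group
    _ = a * a * (b * a⁻¹ * b * a⁻¹) := by rw [h3]
    _ = a * a * (a * b * a * b) := by rw [key]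
    _ = _ := by group

section

variable {F : Type*} [Field F] [CharP F 2] [Fintype F] {m : ℕ}
  (hF : Fintype.card F = 2 ^ (2 * m + 1)) (hm : 1 ≤ m)

/-- the torus attached to the pair of involutions `t(0,1)`, `t⁻(0,e)` -/
noncomputable def UE (e : Fˣ) : Subgroup (Cfsg.Sz F m) :=
  Subgroup.centralizer ({zS hF 1 (e : F)} : Set (Cfsg.Sz F m))

lemma trG_uE (e : Fˣ) : trG (zS hF 1 (e : F)) ≠ 0 := by
  rw [trG_zS]; simp

include hm in
lemma isTorus_UE (e : Fˣ) : IsTorus (UE hF e) := isTorus_cent hF hm (trG_uE hF e)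

lemma uE_ne_one (e : Fˣ) : zS hF 1 (e : F) ≠ 1 := by
  intro h
  apply trG_uE hF e
  rw [h, trG_one hF]

lemma uE_mem (e : Fˣ) : zS hF 1 (e : F) ∈ UE hF e := self_mem_centralizer _

include hm in
lemma z_mem_normalizer (e : Fˣ) :
    tG hF 0 1 ∈ Subgroup.normalizer (UE hF e : Set (Cfsg.Sz F m)) := by
  apply ((isTorus_UE hF hm e).isTor hF hm).mem_normalizer (uE_mem hF e) (uE_ne_one hF e)
  have : tG hF 0 1 * zS hF 1 (e : F) * (tG hF 0 1)⁻¹ = (zS hF 1 (e : F))⁻¹ := by
    unfold zS
    rw [mul_inv_rev, inv_eq_of_mul_eq_one_left (tN_mul_self hF (e : F)),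
      inv_eq_of_mul_eq_one_left (tG_zero_sq hF 1), ← mul_assoc, tG_zero_sq, one_mul]
  rw [this]
  exact inv_mem (uE_mem hF e)

include hm in
lemma zN_mem_normalizer (e : Fˣ) :
    tN hF 0 (e : F) ∈ Subgroup.normalizer (UE hF e : Set (Cfsg.Sz F m)) := by
  have h1 := mul_mem (z_mem_normalizer hF hm e) (Subgroup.le_normalizer (uE_mem hF e))
  unfold zS at h1
  rwa [← mul_assoc, tG_zero_sq, one_mul] at h1

include hm in
lemma exists_vE (e : Fˣ) : ∃ v ∈ Subgroup.normalizer (UE hF e : Set (Cfsg.Sz F m)),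
    v * tG hF 0 1 * v⁻¹ = tN hF 0 (e : F) := by
  obtain ⟨v, hv, _, h⟩ := dihedral_conj (tG_zero_sq hF 1) (tN_mul_self hF (e : F))
    (odd_order_of_trG hF hm (trG_uE hF e)) _ (z_mem_normalizer hF hm e) (zN_mem_normalizer hF hm e)
  exact ⟨v, hv, h⟩

/-- an element of `N(U_e)` conjugating `t(0,1)` to `t⁻(0,e)` -/
noncomputable def vE (e : Fˣ) : Cfsg.Sz F m := Classical.choose (exists_vE hF hm e)

lemma vE_mem (e : Fˣ) : vE hF hm e ∈ Subgroup.normalizer (UE hF e : Set (Cfsg.Sz F m)) :=
  (Classical.choose_spec (exists_vE hF hm e)).1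

lemma vE_conj (e : Fˣ) : vE hF hm e * tG hF 0 1 * (vE hF hm e)⁻¹ = tN hF 0 (e : F) :=
  (Classical.choose_spec (exists_vE hF hm e)).2

lemma tN_fix {c d : F} (h : ¬ (c = 0 ∧ d = 0)) {p : Projectivization F (Fin 4 → F)}
    (hp : p ∈ Cfsg.suzukiOvoid F m) (hfix : tN hF c d • p = p) : p = ptS m 0 0 := by
  have h1 : tG hF c d • (wG hF • p) = wG hF • p := by
    have := congrArg (fun q => wG hF • q) hfix
    simp only [tN, mul_smul] at this
    rwa [← mul_smul (wG hF) (wG hF), wG_mul_self, one_smul] at this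
  have h2 := tG_fix hF h (smul_mem_ovoid (wG hF) hp) h1
  have h3 := congrArg (fun q => wG hF • q) h2
  rwa [← mul_smul, wG_mul_self, one_smul, wG_inf] at h3

lemma vE_inf (e : Fˣ) : vE hF hm e • Cfsg.suzukiPointInfinity F = ptS m 0 0 := by
  apply tN_fix hF (c := 0) (d := (e : F)) (by simp) (smul_mem_ovoid _ (ptInf_mem m))
  rw [← vE_conj hF hm e, mul_smul, mul_smul, inv_smul_smul, tG_inf]



lemma tN_injective {d d' : F} (h : tN hF 0 d = tN hF 0 d') : d = d' := by
  unfold tN at h
  exact (tG_injective hF (mul_left_cancel (mul_right_cancel h))).2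

lemma tG_zero_order {b : F} (hb : b ≠ 0) : orderOf (tG hF 0 b) = 2 :=
  orderOf_eq_prime (by rw [pow_two]; exact tG_zero_sq hF b) (tG_zero_ne_one hF hb)

include hm in
lemma mem_normalizer_UE_zero {e : Fˣ} {b : F}
    (h : tG hF 0 b ∈ Subgroup.normalizer (UE hF e : Set (Cfsg.Sz F m))) : b = 0 ∨ b = 1 := by
  by_cases hb : b = 0
  · exact Or.inl hb
  right
  have hU := isTorus_UE hF hm e
  have h1 := hU.inverts hF hm (tG_zero_ne_one hF hb) (tG_zero_sq hF b) h (uE_mem hF e)
  have h2 := hU.inverts hF hm (tG_zero_ne_one hF one_ne_zero) (tG_zero_sq hF 1)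
    (z_mem_normalizer hF hm e) (uE_mem hF e)
  have h3 : tG hF 0 (1 + b) ∈ UE hF e := by
    unfold UE
    rw [Subgroup.mem_centralizer_singleton_iff]
    have e1 : tG hF 0 (1 + b) = tG hF 0 1 * tG hF 0 b := by
      rw [tG_mul]; congr 1 <;> simp
    set u := zS hF 1 (e : F)
    set i := tG hF 0 b
    set z := tG hF 0 1
    have hi : i * i = 1 := tG_zero_sq hF b
    have hz : z * z = 1 := tG_zero_sq hF 1
    rw [e1]
    calc z * i * u = z * i * u * (i * i) := by rw [hi, mul_one]
      _ = z * (i * u * i) * i := by group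
      _ = z * (z * u * z) * i := by rw [h1, h2]
      _ = (z * z) * u * (z * i) := by group
      _ = u * (z * i) := by rw [hz, one_mul]
  by_contra hne
  have h4 : (1 : F) + b ≠ 0 := by
    intro h0
    apply hne
    have h2' : (2 : F) = 0 := CharTwo.two_eq_zero
    linear_combination h0 - h2'
  exact hU.odd_order hm h3 (by rw [tG_zero_order hF h4])

include hm in
theorem mem_normalizer_UE (e : Fˣ) (a b : F) :
    tG hF a b ∈ Subgroup.normalizer (UE hF e : Set (Cfsg.Sz F m)) ↔
      (a = 0 ∧ (b = 0 ∨ b = 1)) ∨ (a = 1 ∧ (1 + b + th m b) * th m (e : F) = e) := by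
  have hU := isTorus_UE hF hm e
  have htr : ∀ b : F, trG (tG hF 1 b * tN hF 0 (e : F)) =
      (e : F) + (1 + b + th m b) * th m (e : F) := by
    intro b
    rw [trG_tG_tN, fS_eq, fS_eq]
    simp
    ring
  have h2 : (2 : F) = 0 := CharTwo.two_eq_zero
  constructor
  · intro h
    by_cases ha : a = 0
    · subst ha
      exact Or.inl ⟨rfl, mem_normalizer_UE_zero hF hm h⟩
    · right
      have hsq := mul_mem h h
      rw [tG_sq] at hsq
      have ha1 : a = 1 := by
        rcases mem_normalizer_UE_zero hF hm hsq with h0 | h1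
        · exfalso
          rcases mul_eq_zero.1 h0 with h0 | h0
          · exact ha h0
          · exact ha (by simpa using h0)
        · by_contra hne
          exact unit_th_ne_one hF (k := Units.mk0 a ha)
            (fun hk => hne (by simpa using congrArg Units.val hk)) h1
      subst ha1
      refine ⟨rfl, ?_⟩
      have hmem := mul_mem h (zN_mem_normalizer hF hm e)
      have hnot : tG hF 1 b * tN hF 0 (e : F) ∉ UE hF e := by
        intro hin
        have hne : tN hF 0 (e : F) ≠ 1 := by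
          intro h1
          have : tN hF 0 (e : F) = tN hF 0 0 := by
            rw [h1]; unfold tN; rw [tG_zero, mul_one, wG_mul_self]
          exact e.ne_zero (tN_injective hF this)
        have h3 := hU.inverts hF hm hne (tN_mul_self hF _) (zN_mem_normalizer hF hm e) hin
        set r := tG hF 1 b
        set i := tN hF 0 (e : F)
        have hi : i * i = 1 := tN_mul_self hF _
        have hii : i⁻¹ = i := inv_eq_of_mul_eq_one_left hi
        have h4 : i * r = i * r⁻¹ := by
          calc i * r = i * (r * i) * i := by rw [mul_assoc, mul_assoc, hi, mul_one]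
            _ = (r * i)⁻¹ := h3
            _ = i * r⁻¹ := by rw [mul_inv_rev, hii]
        have h5 : r * r = 1 := by
          have := mul_left_cancel h4
          calc r * r = r * r⁻¹ := by rw [← this]
            _ = 1 := mul_inv_cancel r
        have h6 : tG hF 1 b * tG hF 1 b = tG hF 0 (1 * th m 1) := tG_sq hF 1 b
        rw [show tG hF 1 b * tG hF 1 b = 1 from h5] at h6
        exact tG_zero_ne_one hF (b := 1 * th m 1) (by simp) h6.symm
      have h0 := hU.trG_eq_zero hF hm hmem hnot
      rw [htr] at h0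
      linear_combination h0 - (e : F) * h2
  · rintro (⟨rfl, rfl | rfl⟩ | ⟨rfl, h⟩)
    · rw [tG_zero]; exact one_mem _
    · exact z_mem_normalizer hF hm e
    · have h0 : trG (tG hF 1 b * tN hF 0 (e : F)) = 0 := by
        rw [htr]; linear_combination h + (e : F) * h2
      have h4 := pow_four_of_trG hF hm h0
      have hc := comm_244 (tG_pow_four hF 1 b) (tN_mul_self hF (e : F)) h4
      have hz : tG hF 1 b * tG hF 1 b = tG hF 0 1 := by rw [tG_sq]; simp
      rw [hz] at hc
      apply (hU.isTor hF hm).mem_normalizer (uE_mem hF e) (uE_ne_one hF e)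
      unfold UE
      rw [Subgroup.mem_centralizer_singleton_iff]
      exact hc.symm

end

end Cfsg.Agent.Lib.Helper8
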