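import Cfsg.Agent.Lib.Helper8.SzSolTwo

set_option autoImplicit false
set_option linter.unusedSectionVars false

namespace Cfsg.Agent.Lib.Helper8

lemma mem_normalizer_cent_conj {G : Type*} [Group G] (g u h : G) :
    h ∈ Subgroup.normalizer ((Subgroup.centralizer ({g * u * g⁻¹} : Set G) : Subgroup G) : Set G) ↔
      g⁻¹ * h * g ∈ Subgroup.normalizer ((Subgroup.centralizer ({u} : Set G) : Subgroup G) : Set G) := by
  rw [Subgroup.mem_normalizer_iff, Subgroup.mem_normalizer_iff]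
  constructor
  · intro H n
    have := H (g * n * g⁻¹)
    rw [mem_centralizer_conj] at this
    rw [this, ← mem_centralizer_conj (x := g) (h := g⁻¹ * h * g * n * (g⁻¹ * h * g)⁻¹)]
    have e : g * (g⁻¹ * h * g * n * (g⁻¹ * h * g)⁻¹) * g⁻¹ = h * (g * n * g⁻¹) * h⁻¹ := by group
    rw [e]
  · intro H n
    have := H (g⁻¹ * n * g)
    rw [← mem_centralizer_conj (x := g), ← mem_centralizer_conj (x := g)
      (h := g⁻¹ * h * g * (g⁻¹ * n * g) * (g⁻¹ * h * g)⁻¹)] at this
    have e : g * (g⁻¹ * h * g * (g⁻¹ * n * g) * (g⁻¹ * h * g)⁻¹) * g⁻¹ = h * n * h⁻¹ := by group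
    have e' : g * (g⁻¹ * n * g) * g⁻¹ = n := by group
    rwa [e, e'] at this

section

variable {F : Type*} [Field F] [CharP F 2] [Fintype F] {m : ℕ}
  (hF : Fintype.card F = 2 ^ (2 * m + 1)) (hm : 1 ≤ m)

/-- parametrisation of the elements moving `∞` in the normalisers of the tori `U` with
`t(0,1) ∈ N(U)` -/
noncomputable def ThE (t : F × F × Fˣ × F × F) : Cfsg.Sz F m :=
  tG hF t.1 t.2.1 * (vE hF hm t.2.2.1 * tG hF t.2.2.2.1 t.2.2.2.2) * (tG hF t.1 t.2.1)⁻¹

lemma ThE_inf (t : F × F × Fˣ × F × F) :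
    ThE hF hm t • Cfsg.suzukiPointInfinity F = ptS m t.1 t.2.1 := by
  unfold ThE
  rw [mul_smul, mul_smul, mul_smul, tG_inv, tG_inf, tG_inf, vE_inf, tG_pt_zero]

lemma tG_comm_z (a b : F) : tG hF a b * tG hF 0 1 = tG hF 0 1 * tG hF a b := by
  rw [tG_mul, tG_mul]
  congr 1
  · ring
  · simp; ring

lemma ThE_injective : Function.Injective (ThE hF hm : F × F × Fˣ × F × F → Cfsg.Sz F m) := by
  rintro ⟨a, b, e, c, d⟩ ⟨a', b', e', c', d'⟩ h
  have h1 := congrArg (fun g : Cfsg.Sz F m => g • Cfsg.suzukiPointInfinity F) h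
  simp only [ThE_inf] at h1
  obtain ⟨rfl, rfl⟩ := ptS_inj h1
  unfold ThE at h
  have h2 : vE hF hm e * tG hF c d = vE hF hm e' * tG hF c' d' :=
    mul_left_cancel (mul_right_cancel h)
  have key : ∀ (e : Fˣ) (c d : F), (vE hF hm e * tG hF c d) * tG hF 0 1 *
      (vE hF hm e * tG hF c d)⁻¹ = tN hF 0 (e : F) := by
    intro e c d
    rw [← vE_conj hF hm e, mul_assoc (vE hF hm e), tG_comm_z]
    group
  have h3 : tN hF 0 (e : F) = tN hF 0 (e' : F) := by
    rw [← key e c d, ← key e' c' d', h2]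
  have h4 : e = e' := Units.ext (tN_injective hF h3)
  subst h4
  obtain ⟨rfl, rfl⟩ := tG_injective hF (mul_left_cancel h2)
  rfl

include hm in
theorem torus_param (x y : Cfsg.Sz F m)
    (hy : y • Cfsg.suzukiPointInfinity F ≠ Cfsg.suzukiPointInfinity F) :
    (∃ U : Subgroup (Cfsg.Sz F m), IsTorus U ∧
      tG hF 0 1 ∈ Subgroup.normalizer (U : Set (Cfsg.Sz F m)) ∧
      x ∈ Subgroup.normalizer (U : Set (Cfsg.Sz F m)) ∧
      y ∈ Subgroup.normalizer (U : Set (Cfsg.Sz F m))) ↔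
    ∃ t : F × F × Fˣ × F × F, y = ThE hF hm t ∧
      tG hF t.2.2.2.1 t.2.2.2.2 ∈ Subgroup.normalizer (UE hF t.2.2.1 : Set (Cfsg.Sz F m)) ∧
      (tG hF t.1 t.2.1)⁻¹ * x * tG hF t.1 t.2.1 ∈
        Subgroup.normalizer (UE hF t.2.2.1 : Set (Cfsg.Sz F m)) := by
  constructor
  · rintro ⟨U, hU, hz, hx, hyU⟩
    rcases mem_ovoid.1 (smul_mem_ovoid y (ptInf_mem m)) with h | ⟨a, b, hab⟩
    · exact absurd h hy
    set g := tG hF a b with hg
    set z := tG hF 0 1 with hzdef
    have hzz : z * z = 1 := tG_zero_sq hF 1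
    have hz1 : z ≠ 1 := tG_zero_ne_one hF one_ne_zero
    have hgz : g * z = z * g := tG_comm_z hF a b
    -- the involution `g⁻¹ y z y⁻¹ g`
    set j := wG hF * (g⁻¹ * (y * z * y⁻¹) * g) * wG hF with hj
    have hww : wG hF * wG hF = 1 := wG_mul_self hF
    have hwi : (wG hF)⁻¹ = wG hF := inv_eq_of_mul_eq_one_left hww
    have hjconj : j = (wG hF * g⁻¹ * y) * z * (wG hF * g⁻¹ * y)⁻¹ := by
      rw [hj]; simp only [mul_inv_rev, hwi, inv_inv]; group
    have hj1 : j ≠ 1 := by rw [hjconj]; exact conj_ne_one hz1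
    have hj2 : j * j = 1 := by
      rw [hjconj]
      calc _ = (wG hF * g⁻¹ * y) * (z * z) * (wG hF * g⁻¹ * y)⁻¹ := by group
        _ = 1 := by rw [hzz]; group
    have hjinf : j • Cfsg.suzukiPointInfinity F = Cfsg.suzukiPointInfinity F := by
      rw [hjconj, mul_smul, mul_smul]
      have e1 : (wG hF * g⁻¹ * y)⁻¹ • Cfsg.suzukiPointInfinity F = Cfsg.suzukiPointInfinity F := by
        rw [inv_smul_eq_iff, mul_smul, mul_smul, hab, hg, inv_smul_eq_iff.2 (tG_pt_zero hF a b).symm,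
          wG_zero]
      rw [e1, hzdef, tG_inf]
      nth_rewrite 1 [← e1]
      rw [smul_inv_smul]
    obtain ⟨e0, he0, hje⟩ := inv_fix_inf hF hm hj1 hj2 hjinf
    set e : Fˣ := Units.mk0 e0 he0 with he
    have hconj : g⁻¹ * (y * z * y⁻¹) * g = tN hF 0 (e : F) := by
      have : g⁻¹ * (y * z * y⁻¹) * g = wG hF * j * wG hF := by
        rw [hj]
        calc _ = (wG hF * wG hF) * (g⁻¹ * (y * z * y⁻¹) * g) * (wG hF * wG hF) := by
              rw [hww, one_mul, mul_one]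
          _ = _ := by group
      rw [this, hje]; rfl
    -- `U` is the conjugate of `UE e`
    have hi : y * z * y⁻¹ ∈ Subgroup.normalizer (U : Set (Cfsg.Sz F m)) :=
      mul_mem (mul_mem hyU hz) (inv_mem hyU)
    have hu : z * (y * z * y⁻¹) = g * zS hF 1 (e : F) * g⁻¹ := by
      unfold zS
      rw [← hconj, ← hzdef]
      calc z * (y * z * y⁻¹) = (z * g) * g⁻¹ * (y * z * y⁻¹) := by group
        _ = (g * z) * g⁻¹ * (y * z * y⁻¹) := by rw [hgz]
        _ = _ := by group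
    have huN := mul_mem hz hi
    rw [hu] at huN
    have htr : trG (g * zS hF 1 (e : F) * g⁻¹) ≠ 0 := by
      rw [trG_conj]; exact trG_uE hF e
    have hUeq := hU.eq_cent hF hm (conj_ne_one (uE_ne_one hF e)) (odd_order_of_trG hF hm htr) huN
    rw [hUeq, mem_normalizer_cent_conj] at hx hyU
    have hy1 : (vE hF hm e)⁻¹ * (g⁻¹ * y * g) * z = z * ((vE hF hm e)⁻¹ * (g⁻¹ * y * g)) := by
      have h1 : (g⁻¹ * y * g) * z = tN hF 0 (e : F) * (g⁻¹ * y * g) := by
        rw [← hconj]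
        calc (g⁻¹ * y * g) * z = g⁻¹ * y * (g * z) := by group
          _ = g⁻¹ * y * (z * g) := by rw [hgz]
          _ = _ := by group
      rw [mul_assoc, h1, ← vE_conj hF hm e, ← hzdef]
      group
    obtain ⟨c, d, hcd⟩ := cent_tG hF hm (a := 0) (b := 1) (by simp) hy1
    refine ⟨(a, b, e, c, d), ?_, ?_, hx⟩
    · unfold ThE
      show y = g * (vE hF hm e * tG hF c d) * g⁻¹
      rw [← hcd]; group
    · show tG hF c d ∈ _
      rw [← hcd]
      exact mul_mem (inv_mem (vE_mem hF hm e)) hyU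
  · rintro ⟨⟨a, b, e, c, d⟩, rfl, h1, h2⟩
    simp only at h1 h2
    have htr : trG (tG hF a b * zS hF 1 (e : F) * (tG hF a b)⁻¹) ≠ 0 := by
      rw [trG_conj]; exact trG_uE hF e
    refine ⟨_, isTorus_cent hF hm htr, ?_, ?_, ?_⟩
    · rw [mem_normalizer_cent_conj, mul_assoc, ← tG_comm_z, inv_mul_cancel_left]
      exact z_mem_normalizer hF hm e
    · rw [mem_normalizer_cent_conj]
      exact h2
    · rw [mem_normalizer_cent_conj]
      unfold ThE
      have : (tG hF a b)⁻¹ * (tG hF a b * (vE hF hm e * tG hF c d) * (tG hF a b)⁻¹) * tG hF a b =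
          vE hF hm e * tG hF c d := by group
      simp only
      rw [this]
      exact mul_mem (vE_mem hF hm e) h1

end

end Cfsg.Agent.Lib.Helper8
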