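import Cfsg.Agent.Lib.Helper8.SzSolTwoB

set_option autoImplicit false
set_option linter.unusedSectionVars false

namespace Cfsg.Agent.Lib.Helper8

section

variable {F : Type*} [Field F] [CharP F 2] [Fintype F] {m : ℕ}
  (hF : Fintype.card F = 2 ^ (2 * m + 1)) (hm : 1 ≤ m)

include hF in
lemma cE_ne_zero (b : F) : 1 + b + th m b ≠ 0 := by
  intro h
  apply one_not_mem_WW hF
  refine ⟨b, ?_⟩
  have h2 : (2 : F) = 0 := CharTwo.two_eq_zero
  show b + th m b = 1
  linear_combination h - h2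

/-- the unique unit `e` with `(1 + b + θ b) θ(e) = e` -/
noncomputable def eE (b : F) : Fˣ :=
  Units.mk0 ((1 + b + th m b)⁻¹ * (th m (1 + b + th m b))⁻¹)
    (mul_ne_zero (inv_ne_zero (cE_ne_zero hF b))
      (inv_ne_zero ((map_ne_zero (th m)).2 (cE_ne_zero hF b))))

lemma eE_spec (b : F) : (1 + b + th m b) * th m (eE hF b : F) = eE hF b := by
  have hc := cE_ne_zero hF b
  have hc' : th m (1 + b + th m b) ≠ 0 := (map_ne_zero (th m)).2 hc
  unfold eE
  simp only [Units.val_mk0]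
  generalize 1 + b + th m b = c at hc hc' ⊢
  rw [map_mul, map_inv₀, map_inv₀, th_th hF]
  field_simp

lemma eE_unique {b : F} {e : Fˣ} (h : (1 + b + th m b) * th m (e : F) = e) : e = eE hF b := by
  have hc := cE_ne_zero hF b
  have h' := eE_spec hF b
  have he' : (eE hF b : F) ≠ 0 := (eE hF b).ne_zero
  have hte' : th m (eE hF b : F) ≠ 0 := by simpa using he'
  have h1 : th m ((e : F) / (eE hF b : F)) = (e : F) / (eE hF b : F) := by
    rw [map_div₀, div_eq_div_iff hte' he']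
    calc th m (e : F) * (eE hF b : F) = th m (e : F) * ((1 + b + th m b) * th m (eE hF b : F)) := by
          rw [h']
      _ = ((1 + b + th m b) * th m (e : F)) * th m (eE hF b : F) := by ring
      _ = _ := by rw [h]
  apply Units.ext
  rcases th_fixed hF h1 with h0 | h0
  · exfalso
    rcases div_eq_zero_iff.1 h0 with h0 | h0
    · exact e.ne_zero h0
    · exact he' h0
  · exact (div_eq_one_iff_eq he').1 h0

/-- the parameter set -/
def CE (α β : F) : Set (F × F × Fˣ × F × F) :=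
  {t | tG hF t.2.2.2.1 t.2.2.2.2 ∈ Subgroup.normalizer (UE hF t.2.2.1 : Set (Cfsg.Sz F m)) ∧
    tG hF α (β + th m t.1 * α + th m α * t.1) ∈
      Subgroup.normalizer (UE hF t.2.2.1 : Set (Cfsg.Sz F m))}

include hm in
theorem sol_two_iff {α β : F} (hαβ : ¬ (α = 0 ∧ β = 0))
    (hz : ∀ K : Subgroup (Cfsg.Sz F m), tG hF α β ∈ K → tG hF 0 1 ∈ K) (y : Cfsg.Sz F m) :
    Group.IsSolvable (Subgroup.closure ({tG hF α β, y} : Set (Cfsg.Sz F m))) ↔
      y ∈ (MulAction.stabilizer (Cfsg.Sz F m) (Cfsg.suzukiPointInfinity F) : Set (Cfsg.Sz F m)) ∪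
        ThE hF hm '' CE hF α β := by
  have hconj : ∀ a b : F, (tG hF a b)⁻¹ * tG hF α β * tG hF a b =
      tG hF α (β + th m a * α + th m α * a) := by
    intro a b
    have : (tG hF a b)⁻¹ * tG hF α β * tG hF a b =
        tG hF a (b + a * th m a) * tG hF α β * (tG hF a (b + a * th m a))⁻¹ := by
      rw [← tG_inv, inv_inv]
    rw [this, tG_conj_tG]
  rw [sol_iff hF hm]
  by_cases hy : y • Cfsg.suzukiPointInfinity F = Cfsg.suzukiPointInfinity F
  · constructor
    · intro _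
      exact Or.inl hy
    · intro _
      exact Or.inl ⟨_, ptInf_mem m, tG_inf hF α β, hy⟩
  · have key := torus_param hF hm (tG hF α β) y hy
    constructor
    · rintro (⟨p, hp, hx, hyp⟩ | ⟨U, hU, hx, hyU⟩)
      · rw [tG_fix hF hαβ hp hx] at hyp
        exact absurd hyp hy
      · right
        obtain ⟨t, rfl, h1, h2⟩ := key.1 ⟨U, hU, hz _ hx, hx, hyU⟩
        rw [hconj] at h2
        exact ⟨t, ⟨h1, h2⟩, rfl⟩
    · rintro (h | ⟨t, ⟨h1, h2⟩, rfl⟩)
      · exact absurd h hy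
      · right
        rw [← hconj t.1 t.2.1] at h2
        obtain ⟨U, hU, _, hx, hyU⟩ := key.2 ⟨t, rfl, h1, h2⟩
        exact ⟨U, hU, hx, hyU⟩

include hm in
theorem card_sol_two {α β : F} (hαβ : ¬ (α = 0 ∧ β = 0))
    (hz : ∀ K : Subgroup (Cfsg.Sz F m), tG hF α β ∈ K → tG hF 0 1 ∈ K) :
    Nat.card {y : Cfsg.Sz F m //
      Group.IsSolvable (Subgroup.closure ({tG hF α β, y} : Set (Cfsg.Sz F m)))} =
      (2 ^ (2 * m + 1)) ^ 2 * (2 ^ (2 * m + 1) - 1) + (CE hF α β).ncard := by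
  rw [Nat.card_congr (Equiv.subtypeEquivRight (sol_two_iff hF hm hαβ hz)), Nat.card_coe_set_eq]
  have c1 : (MulAction.stabilizer (Cfsg.Sz F m) (Cfsg.suzukiPointInfinity F) :
      Set (Cfsg.Sz F m)).ncard = (2 ^ (2 * m + 1)) ^ 2 * (2 ^ (2 * m + 1) - 1) := by
    rw [← card_stab_inf hF hm, ← Nat.card_coe_set_eq]; rfl
  have hdisj : Disjoint (MulAction.stabilizer (Cfsg.Sz F m) (Cfsg.suzukiPointInfinity F) :
      Set (Cfsg.Sz F m)) (ThE hF hm '' CE hF α β) := by
    rw [Set.disjoint_right]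
    rintro _ ⟨t, _, rfl⟩ h
    have h' : ThE hF hm t • Cfsg.suzukiPointInfinity F = Cfsg.suzukiPointInfinity F := h
    rw [ThE_inf] at h'
    exact ptS_ne_inf m _ _ h'
  rw [Set.ncard_union_eq hdisj (Set.toFinite _) (Set.toFinite _), c1,
    Set.ncard_image_of_injective _ (ThE_injective hF hm)]

/-- index map for the involution -/
noncomputable def iotaZ (s : (F × F) × ((Fˣ × Bool) ⊕ F)) : F × F × Fˣ × F × F :=
  match s.2 with
  | Sum.inl (e, c) => (s.1.1, s.1.2, e, 0, if c then 1 else 0)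
  | Sum.inr d => (s.1.1, s.1.2, eE hF d, 1, d)

lemma iotaZ_injective : Function.Injective (iotaZ hF (m := m)) := by
  rintro ⟨⟨a, b⟩, (⟨e, c⟩ | d)⟩ ⟨⟨a', b'⟩, (⟨e', c'⟩ | d')⟩ h
  · simp only [iotaZ, Prod.mk.injEq] at h
    obtain ⟨rfl, rfl, rfl, _, h⟩ := h
    have : c = c' := by
      cases c <;> cases c' <;> simp at h ⊢
    rw [this]
  · simp [iotaZ] at h
  · simp [iotaZ] at h
  · simp only [iotaZ, Prod.mk.injEq] at h
    obtain ⟨rfl, rfl, _, _, rfl⟩ := h
    rfl

include hm in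
lemma CE_z : CE hF (0 : F) 1 = Set.range (iotaZ hF (m := m)) := by
  ext ⟨a, b, e, c, d⟩
  simp only [CE, Set.mem_ofPred_eq, Set.mem_range]
  have h1 : tG hF (0 : F) (1 + th m a * 0 + th m 0 * a) = tG hF 0 1 := by
    congr 1; simp
  rw [h1, mem_normalizer_UE hF hm]
  constructor
  · rintro ⟨(⟨rfl, rfl | rfl⟩ | ⟨rfl, h⟩), _⟩
    · exact ⟨((a, b), Sum.inl (e, false)), by simp [iotaZ]⟩
    · exact ⟨((a, b), Sum.inl (e, true)), by simp [iotaZ]⟩
    · exact ⟨((a, b), Sum.inr d), by simp [iotaZ, eE_unique hF h]⟩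
  · rintro ⟨⟨⟨a', b'⟩, (⟨e', c'⟩ | d')⟩, h⟩
    · simp only [iotaZ, Prod.mk.injEq] at h
      obtain ⟨rfl, rfl, rfl, rfl, rfl⟩ := h
      refine ⟨Or.inl ⟨rfl, ?_⟩, z_mem_normalizer hF hm _⟩
      cases c' <;> simp
    · simp only [iotaZ, Prod.mk.injEq] at h
      obtain ⟨rfl, rfl, rfl, rfl, rfl⟩ := h
      exact ⟨Or.inr ⟨rfl, eE_spec hF _⟩, z_mem_normalizer hF hm _⟩

include hm in
theorem card_sol_z :
    Nat.card {y : Cfsg.Sz F m //
      Group.IsSolvable (Subgroup.closure ({tG hF 0 1, y} : Set (Cfsg.Sz F m)))} =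
      (2 ^ (2 * m + 1)) ^ 2 * (4 * 2 ^ (2 * m + 1) - 3) := by
  classical
  rw [card_sol_two hF hm (by simp) (fun K h => h), CE_z hF hm, ← Nat.card_coe_set_eq,
    Nat.card_range_of_injective (iotaZ_injective hF), Nat.card_eq_fintype_card]
  simp only [Fintype.card_prod, Fintype.card_sum, Fintype.card_units, Fintype.card_bool, hF]
  have hq := eight_le_q hm
  generalize 2 ^ (2 * m + 1) = q at hq ⊢
  obtain ⟨k, rfl⟩ : ∃ k, q = k + 1 := ⟨q - 1, by omega⟩
  have e1 : 4 * (k + 1) - 3 = 4 * k + 1 := by omega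
  rw [e1, Nat.add_sub_cancel]
  ring

/-- index map for elements of order four -/
noncomputable def iotaX (β : F) (s : (F × F) × (Bool × Bool)) : F × F × Fˣ × F × F :=
  (s.1.1, s.1.2, eE hF (β + th m s.1.1 + s.1.1), if s.2.1 then 1 else 0,
    (if s.2.1 then β + th m s.1.1 + s.1.1 else 0) + (if s.2.2 then 1 else 0))

lemma iotaX_injective (β : F) : Function.Injective (iotaX hF (m := m) β) := by
  rintro ⟨⟨a, b⟩, ⟨c, d⟩⟩ ⟨⟨a', b'⟩, ⟨c', d'⟩⟩ h
  simp only [iotaX, Prod.mk.injEq] at h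
  obtain ⟨rfl, rfl, _, h1, h2⟩ := h
  have hc : c = c' := by
    cases c <;> cases c' <;> simp at h1 ⊢
  subst hc
  have hd : d = d' := by
    have := add_left_cancel h2
    cases d <;> cases d' <;> simp at this ⊢
  rw [hd]

include hm in
lemma CE_x (β : F) : CE hF (1 : F) β = Set.range (iotaX hF (m := m) β) := by
  have h2 : (2 : F) = 0 := CharTwo.two_eq_zero
  ext ⟨a, b, e, c, d⟩
  simp only [CE, Set.mem_ofPred_eq, Set.mem_range]
  have h1 : tG hF (1 : F) (β + th m a * 1 + th m 1 * a) = tG hF 1 (β + th m a + a) := by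
    congr 1; simp
  rw [h1, mem_normalizer_UE hF hm, mem_normalizer_UE hF hm]
  constructor
  · rintro ⟨hcd, (⟨h, _⟩ | ⟨_, he⟩)⟩
    · exact absurd h one_ne_zero
    have hee := eE_unique hF he
    rcases hcd with ⟨rfl, rfl | rfl⟩ | ⟨rfl, h⟩
    · exact ⟨((a, b), (false, false)), by simp [iotaX, hee]⟩
    · exact ⟨((a, b), (false, true)), by simp [iotaX, hee]⟩
    · have hte : th m (e : F) ≠ 0 := by simpa using e.ne_zero
      have h3 : 1 + d + th m d = 1 + (β + th m a + a) + th m (β + th m a + a) :=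
        mul_right_cancel₀ hte (h.trans he.symm)
      have h4 : th m (d + (β + th m a + a)) = d + (β + th m a + a) := by
        rw [map_add]
        linear_combination h3 + (th m (β + th m a + a) - d) * h2
      rcases th_fixed hF h4 with h5 | h5
      · refine ⟨((a, b), (true, false)), ?_⟩
        have : d = β + th m a + a := by linear_combination h5 - (β + th m a + a) * h2
        simp [iotaX, hee, this]
      · refine ⟨((a, b), (true, true)), ?_⟩
        have : d = β + th m a + a + 1 := by linear_combination h5 - (β + th m a + a) * h2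
        simp [iotaX, hee, this]
  · rintro ⟨⟨⟨a', b'⟩, ⟨c', d'⟩⟩, h⟩
    simp only [iotaX, Prod.mk.injEq] at h
    obtain ⟨rfl, rfl, rfl, rfl, rfl⟩ := h
    refine ⟨?_, Or.inr ⟨rfl, eE_spec hF _⟩⟩
    cases c' <;> cases d'
    · simp
    · simp
    · right
      simpa using eE_spec hF (β + th m a' + a')
    · right
      refine ⟨by simp, ?_⟩
      have := eE_spec hF (β + th m a' + a')
      simp only [if_true]
      have e1 : 1 + (β + th m a' + a' + 1) + th m (β + th m a' + a' + 1) =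
          1 + (β + th m a' + a') + th m (β + th m a' + a') := by
        rw [map_add _ _ (1 : F), map_one]
        linear_combination h2
      rw [e1]
      exact this

include hm in
theorem card_sol_x (β : F) :
    Nat.card {y : Cfsg.Sz F m //
      Group.IsSolvable (Subgroup.closure ({tG hF 1 β, y} : Set (Cfsg.Sz F m)))} =
      (2 ^ (2 * m + 1)) ^ 2 * (2 ^ (2 * m + 1) + 3) := by
  have hz : ∀ K : Subgroup (Cfsg.Sz F m), tG hF 1 β ∈ K → tG hF 0 1 ∈ K := by
    intro K h
    have := mul_mem h h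
    rw [tG_sq] at this
    simpa using this
  rw [card_sol_two hF hm (by simp) hz, CE_x hF hm, ← Nat.card_coe_set_eq,
    Nat.card_range_of_injective (iotaX_injective hF β), Nat.card_eq_fintype_card]
  simp only [Fintype.card_prod, Fintype.card_bool, hF]
  have hq := eight_le_q hm
  generalize 2 ^ (2 * m + 1) = q at hq ⊢
  obtain ⟨k, rfl⟩ : ∃ k, q = k + 1 := ⟨q - 1, by omega⟩
  rw [Nat.add_sub_cancel]
  ring

end

end Cfsg.Agent.Lib.Helper8
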