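import Cfsg.Agent.Lib.Helper8.SzLocal
import Cfsg.Agent.Lib.Helper8.SzClassSq

set_option autoImplicit false
set_option linter.unusedSectionVars false
open scoped commutatorElement

namespace Cfsg.Agent.Lib.Helper8

section General

variable {G G' : Type*} [Group G] [Group G']

lemma closure_pair_map (e : G ≃* G') (x y : G) :
    (Subgroup.closure ({x, y} : Set G)).map e.toMonoidHom = Subgroup.closure {e x, e y} := by
  rw [MonoidHom.map_closure]
  congr 1
  simp [Set.image_pair]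

lemma sol_equiv (e : G ≃* G') (x y : G) :
    Group.IsSolvable (Subgroup.closure ({e x, e y} : Set G')) ↔
      Group.IsSolvable (Subgroup.closure ({x, y} : Set G)) := by
  rw [← closure_pair_map]
  let φ := (Subgroup.closure ({x, y} : Set G)).equivMapOfInjective e.toMonoidHom e.injective
  constructor
  · intro h
    exact Group.isSolvable_of_isSolvable_injective (f := φ.toMonoidHom) φ.injective
  · intro h
    exact Group.isSolvable_of_surjective (f := φ.toMonoidHom) φ.surjective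

lemma card_sol_equiv (e : G ≃* G') (x : G) :
    Nat.card {y' : G' // Group.IsSolvable (Subgroup.closure ({e x, y'} : Set G'))} =
      Nat.card {y : G // Group.IsSolvable (Subgroup.closure ({x, y} : Set G))} := by
  apply Nat.card_congr
  exact (e.toEquiv.subtypeEquiv (fun y => (sol_equiv e x y).symm)).symm

lemma solvable_of_le {H K : Subgroup G} (h : H ≤ K) (hK : Group.IsSolvable K) :
    Group.IsSolvable H :=
  Group.isSolvable_of_isSolvable_injective (Subgroup.inclusion_injective h)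

lemma closure_pair_le {x y : G} {K : Subgroup G} :
    Subgroup.closure ({x, y} : Set G) ≤ K ↔ x ∈ K ∧ y ∈ K := by
  rw [Subgroup.closure_le]
  constructor
  · intro h
    exact ⟨h (by simp), h (by simp)⟩
  · rintro ⟨hx, hy⟩ z hz
    rcases hz with rfl | rfl
    · exact hx
    · exact hy

/-- the normaliser of a cyclic subgroup of index 2 or 4 in it is solvable -/
lemma solvable_normalizer_of_card [Finite G] {U : Subgroup G} [IsCyclic U]
    (hN : Nat.card (Subgroup.normalizer (U : Set G)) = 2 * Nat.card U ∨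
      Nat.card (Subgroup.normalizer (U : Set G)) = 4 * Nat.card U) :
    Group.IsSolvable (Subgroup.normalizer (U : Set G)) := by
  have hle : U ≤ Subgroup.normalizer (U : Set G) := Subgroup.le_normalizer
  rw [Group.isSolvable_iff_subgroup_quotient (U.subgroupOf (Subgroup.normalizer (U : Set G)))]
  constructor
  · apply Group.isSolvable_of_comm
    rintro ⟨⟨a, ha'⟩, ha⟩ ⟨⟨b, hb'⟩, hb⟩
    apply Subtype.ext
    apply Subtype.ext
    exact comm_of_cyclic (H := U) ha hb
  · have h1 := Subgroup.card_mul_index (U.subgroupOf (Subgroup.normalizer (U : Set G)))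
    rw [Nat.card_congr (Subgroup.subgroupOfEquivOfLe hle).toEquiv] at h1
    have hpos : 0 < Nat.card U := Nat.card_pos
    have : Fact (Nat.Prime 2) := ⟨Nat.prime_two⟩
    have hp : IsPGroup 2 (Subgroup.normalizer (U : Set G) ⧸
        U.subgroupOf (Subgroup.normalizer (U : Set G))) := by
      rcases hN with hN | hN
      · apply IsPGroup.of_card (n := 1)
        rw [← Subgroup.index_eq_card]
        apply Nat.eq_of_mul_eq_mul_left hpos
        rw [h1, hN]; ring
      · apply IsPGroup.of_card (n := 2)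
        rw [← Subgroup.index_eq_card]
        apply Nat.eq_of_mul_eq_mul_left hpos
        rw [h1, hN]; ring
    have := hp.isNilpotent
    infer_instance

end General

section

variable {F : Type*} [Field F] [CharP F 2] [Fintype F] {m : ℕ}
  (hF : Fintype.card F = 2 ^ (2 * m + 1)) (hm : 1 ≤ m)

include hF hm in
lemma solvable_stab_inf :
    Group.IsSolvable (MulAction.stabilizer (Cfsg.Sz F m) (Cfsg.suzukiPointInfinity F)) := by
  have := QG_solvable hF
  apply Group.isSolvable_of_ker_le_range (Subgroup.inclusion (QG_le_stab hF))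
    (Abelianization.of (G := MulAction.stabilizer (Cfsg.Sz F m) (Cfsg.suzukiPointInfinity F)))
  rw [Abelianization.ker_of, commutator_def, Subgroup.commutator_le]
  rintro ⟨g₁, h₁⟩ _ ⟨g₂, h₂⟩ _
  obtain ⟨a₁, b₁, k₁, rfl⟩ := nf_inf hF hm h₁
  obtain ⟨a₂, b₂, k₂, rfl⟩ := nf_inf hF hm h₂
  have key : ⁅tG hF a₁ b₁ * dG hF k₁, tG hF a₂ b₂ * dG hF k₂⁆ ∈ QG hF := by
    have hc : dG hF k₁ * dG hF k₂ = dG hF k₂ * dG hF k₁ := dG_comm hF k₁ k₂
    have e : ⁅tG hF a₁ b₁ * dG hF k₁, tG hF a₂ b₂ * dG hF k₂⁆ =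
        tG hF a₁ b₁ * (dG hF k₁ * tG hF a₂ b₂ * (dG hF k₁)⁻¹) *
          (dG hF k₂ * (tG hF a₁ b₁)⁻¹ * (dG hF k₂)⁻¹) * (tG hF a₂ b₂)⁻¹ := by
      calc ⁅tG hF a₁ b₁ * dG hF k₁, tG hF a₂ b₂ * dG hF k₂⁆
          = tG hF a₁ b₁ * (dG hF k₁ * tG hF a₂ b₂ * (dG hF k₁)⁻¹) * (dG hF k₁ * dG hF k₂) *
            (dG hF k₁)⁻¹ * (tG hF a₁ b₁)⁻¹ * (dG hF k₂)⁻¹ * (tG hF a₂ b₂)⁻¹ := by
            rw [commutatorElement_def]; group
        _ = _ := by rw [hc]; group
    rw [e, tG_inv, tG_inv, dG_conj_tG, dG_conj_tG]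
    exact mul_mem (mul_mem (mul_mem (tG_mem_QG hF _ _) (tG_mem_QG hF _ _)) (tG_mem_QG hF _ _))
      (tG_mem_QG hF _ _)
  exact ⟨⟨_, key⟩, rfl⟩

include hF hm in
lemma solvable_stab {p : Projectivization F (Fin 4 → F)} (hp : p ∈ Cfsg.suzukiOvoid F m) :
    Group.IsSolvable (MulAction.stabilizer (Cfsg.Sz F m) p) := by
  obtain ⟨g, hg⟩ := exists_to_inf hF hp
  have h1 : MulAction.stabilizer (Cfsg.Sz F m) (Cfsg.suzukiPointInfinity F) =
      (MulAction.stabilizer (Cfsg.Sz F m) p).map (MulAut.conj g).toMonoidHom := by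
    rw [← hg, MulAction.stabilizer_smul_eq_stabilizer_map_conj]
  have h2 := solvable_stab_inf hF hm
  rw [h1] at h2
  let φ := (MulAction.stabilizer (Cfsg.Sz F m) p).equivMapOfInjective (MulAut.conj g).toMonoidHom
    (MulAut.conj g).injective
  exact Group.isSolvable_of_isSolvable_injective (f := φ.toMonoidHom) φ.injective

/-- maximal tori -/
def IsTorus (U : Subgroup (Cfsg.Sz F m)) : Prop :=
  IsCyclic U ∧ Nat.card U ∈ ({2 ^ (2 * m + 1) - 1,
      2 ^ (2 * m + 1) + 2 ^ (m + 1) + 1, 2 ^ (2 * m + 1) - 2 ^ (m + 1) + 1} : Set ℕ)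

include hF hm in
/-- solvability criterion for two-generated subgroups -/
theorem sol_iff (x y : Cfsg.Sz F m) :
    Group.IsSolvable (Subgroup.closure ({x, y} : Set (Cfsg.Sz F m))) ↔
      (∃ p ∈ Cfsg.suzukiOvoid F m, x • p = p ∧ y • p = p) ∨
      (∃ U : Subgroup (Cfsg.Sz F m), IsTorus U ∧ x ∈ Subgroup.normalizer (U : Set (Cfsg.Sz F m)) ∧
        y ∈ Subgroup.normalizer (U : Set (Cfsg.Sz F m))) := by
  constructor
  · intro h
    rcases inLocal_of_solvable hF hm h with ⟨P, hP⟩ | ⟨U, hc, hcard, hU⟩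
    · left
      obtain ⟨p, hp, hiff⟩ := normalizer_sylow hF hm P
      obtain ⟨hx, hy⟩ := closure_pair_le.1 hP
      exact ⟨p, hp, (hiff x).1 hx, (hiff y).1 hy⟩
    · right
      obtain ⟨hx, hy⟩ := closure_pair_le.1 hU
      exact ⟨U, ⟨hc, hcard⟩, hx, hy⟩
  · rintro (⟨p, hp, hx, hy⟩ | ⟨U, ⟨hc, hcard⟩, hx, hy⟩)
    · exact solvable_of_le (closure_pair_le.2 ⟨hx, hy⟩) (solvable_stab hF hm hp)
    · exact solvable_of_le (closure_pair_le.2 ⟨hx, hy⟩)
        (solvable_normalizer_of_card (torus_classify hF hm hc hcard).2)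


include hF hm in
lemma trG_eq_zero_iff {g : Cfsg.Sz F m} :
    trG g = 0 ↔ ∃ (x : Cfsg.Sz F m) (a b : F), x * g * x⁻¹ = tG hF a b := by
  constructor
  · intro h
    by_cases hg : g = 1
    · exact ⟨1, 0, 0, by rw [hg, tG_zero]; group⟩
    rcases trichotomy hF hm hg with ⟨x, a, b, _, e⟩ | ⟨x, k, hk, e⟩ | hf
    · exact ⟨x, a, b, e⟩
    · exfalso
      obtain ⟨b, d, hb, hd, hc⟩ := dG_conj_zS hF hm hk
      rw [← trG_conj x, e, trG_of_isConj hc, trG_zS] at h
      simp [hb, hd] at h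
    · exfalso
      obtain ⟨b, d, hb, hd, hc⟩ := fpf_conj_zS hF hm hf
      rw [trG_of_isConj hc, trG_zS] at h
      simp [hb, hd] at h
  · rintro ⟨x, a, b, e⟩
    rw [← trG_conj x, e, trG_tG]

include hF hm in
lemma pow_four_of_trG {g : Cfsg.Sz F m} (h : trG g = 0) : g ^ 4 = 1 := by
  obtain ⟨x, a, b, e⟩ := (trG_eq_zero_iff hF hm).1 h
  have : g = x⁻¹ * tG hF a b * x⁻¹⁻¹ := by rw [← e]; group
  rw [this, conj_pow, tG_pow_four]; group

include hF hm in
/-- the centraliser of an element of non-zero trace is a maximal torus -/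
lemma isTorus_cent {u : Cfsg.Sz F m} (h : trG u ≠ 0) :
    IsTorus (Subgroup.centralizer ({u} : Set (Cfsg.Sz F m))) := by
  have hu : u ≠ 1 := by
    rintro rfl
    exact h (trG_one hF)
  rcases trichotomy hF hm hu with ⟨x, a, b, _, e⟩ | ⟨x, k, hk, e⟩ | hf
  · exact absurd ((trG_eq_zero_iff hF hm).2 ⟨x, a, b, e⟩) h
  · refine ⟨isCyclic_of_conj_le (K := DG hF) x (cent_conj_dG hF hm hk e), ?_⟩
    rw [cent_of_conj_dG hF hm hk e, card_map_conj, card_DG]
    simp
  · refine ⟨cent_cyclic_fpf hF hm hf, ?_⟩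
    rcases (card_cent_fpf hF hm hf).1 with h | h <;> rw [h] <;> simp

include hF hm in
lemma IsTorus.isTor {U : Subgroup (Cfsg.Sz F m)} (hU : IsTorus U) : IsTor U :=
  (torus_classify hF hm hU.1 hU.2).1

include hm in
lemma IsTorus.odd {U : Subgroup (Cfsg.Sz F m)} (hU : IsTorus U) : ¬ 2 ∣ Nat.card U :=
  odd_of_mem_set hm hU.2

include hm in
lemma IsTorus.odd_order {U : Subgroup (Cfsg.Sz F m)} (hU : IsTorus U) {u : Cfsg.Sz F m}
    (hu : u ∈ U) : ¬ 2 ∣ orderOf u := by
  intro h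
  apply hU.odd hm
  have := orderOf_dvd_natCard (⟨u, hu⟩ : U)
  rw [Subgroup.orderOf_mk] at this
  exact h.trans this

include hF hm in
lemma odd_order_of_trG {u : Cfsg.Sz F m} (h : trG u ≠ 0) : ¬ 2 ∣ orderOf u :=
  (isTorus_cent hF hm h).odd_order hm (self_mem_centralizer u)

include hF hm in
lemma trG_ne_zero_of_odd {u : Cfsg.Sz F m} (hu : u ≠ 1) (h : ¬ 2 ∣ orderOf u) : trG u ≠ 0 := by
  intro h0
  have h4 := pow_four_of_trG hF hm h0
  have h6 : orderOf u ∣ 2 ^ 2 := orderOf_dvd_of_pow_eq_one h4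
  obtain ⟨j, _, hj⟩ := (Nat.dvd_prime_pow Nat.prime_two).1 h6
  rcases Nat.eq_zero_or_pos j with rfl | hj0
  · rw [pow_zero] at hj
    exact hu (orderOf_eq_one_iff.1 hj)
  · exact h (hj ▸ dvd_pow_self 2 hj0.ne')

include hF hm in
/-- a torus normalised by a non-trivial element of odd order is its centraliser -/
lemma IsTorus.eq_cent {U : Subgroup (Cfsg.Sz F m)} (hU : IsTorus U) {u : Cfsg.Sz F m}
    (hu1 : u ≠ 1) (hodd : ¬ 2 ∣ orderOf u)
    (hu : u ∈ Subgroup.normalizer (U : Set (Cfsg.Sz F m))) :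
    U = Subgroup.centralizer ({u} : Set (Cfsg.Sz F m)) := by
  have h1 := odd_mem_of_normalizer (torus_classify hF hm hU.1 hU.2).2 hu hodd
  exact ((hU.isTor hF hm) u h1 hu1).symm

include hF hm in
/-- an involution normalising a torus inverts it -/
lemma IsTorus.inverts {U : Subgroup (Cfsg.Sz F m)} (hU : IsTorus U) {i : Cfsg.Sz F m}
    (hi1 : i ≠ 1) (hi2 : i * i = 1) (hi : i ∈ Subgroup.normalizer (U : Set (Cfsg.Sz F m)))
    {u : Cfsg.Sz F m} (hu : u ∈ U) : i * u * i = u⁻¹ := by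
  have hinv : i⁻¹ = i := inv_eq_of_mul_eq_one_left hi2
  have hmem : i * u * i ∈ U := by
    have := (Subgroup.mem_normalizer_iff.1 hi u).1 hu
    rwa [hinv] at this
  have := hU.1
  have hcomm : u * (i * u * i) = (i * u * i) * u := comm_of_cyclic hu hmem
  by_contra hne
  have hv1 : u * (i * u * i) ≠ 1 := fun h => hne (eq_inv_of_mul_eq_one_right h)
  have hv : u * (i * u * i) ∈ U := mul_mem hu hmem
  have hcent : i ∈ Subgroup.centralizer ({u * (i * u * i)} : Set (Cfsg.Sz F m)) := by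
    rw [Subgroup.mem_centralizer_singleton_iff]
    calc i * (u * (i * u * i)) = (i * u * i) * u * i := by group
      _ = u * (i * u * i) * i := by rw [hcomm]
  rw [(hU.isTor hF hm) _ hv hv1] at hcent
  have h2 : orderOf i = 2 := orderOf_eq_prime (by rw [pow_two]; exact hi2) hi1
  exact hU.odd_order hm hcent (by rw [h2])

include hF hm in
/-- elements of a torus normaliser outside the torus have trace zero -/
lemma IsTorus.trG_eq_zero {U : Subgroup (Cfsg.Sz F m)} (hU : IsTorus U) {g : Cfsg.Sz F m}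
    (hg : g ∈ Subgroup.normalizer (U : Set (Cfsg.Sz F m))) (hgU : g ∉ U) : trG g = 0 := by
  by_contra h
  exact hgU (odd_mem_of_normalizer (torus_classify hF hm hU.1 hU.2).2 hg (odd_order_of_trG hF hm h))

end

end Cfsg.Agent.Lib.Helper8
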